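-- helper78 library: piece BT of CALL S2490 (helper10); pure Mathlib.
import Mathlib

set_option autoImplicit false

namespace Cfsg.Agent.Helper78.O7920BT

open Subgroup

theorem burnside_normal {G : Type*} [Group G] [Finite G] {p : ℕ} [Fact p.Prime]
    (N : Subgroup G) [N.Normal] (P : Sylow p G) (hPN : (P : Subgroup G) ≤ N)
    (hNC : N ⊓ normalizer ((P : Subgroup G) : Set G) ≤
      centralizer ((P : Subgroup G) : Set G)) :
    ∃ L : Subgroup G, L.Normal ∧ L ≤ N ∧
      Nat.card L * Nat.card (P : Subgroup G) = Nat.card N ∧ ¬ p ∣ Nat.card L := by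
  classical
  -- the Sylow subgroup of `N`
  have hP' : normalizer (((P.subtype hPN : Sylow p N) : Subgroup N) : Set N) ≤
      centralizer (((P.subtype hPN : Sylow p N) : Subgroup N) : Set N) := by
    intro x hx
    rw [Sylow.coe_subtype] at hx ⊢
    have hxn : (x : G) ∈ normalizer ((P : Subgroup G) : Set G) := by
      rw [Subgroup.mem_normalizer_iff]
      intro h
      rw [Subgroup.mem_normalizer_iff] at hx
      constructor
      · intro hh
        have h1 := (hx ⟨h, hPN hh⟩).mp (Subgroup.mem_subgroupOf.mpr hh)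
        exact Subgroup.mem_subgroupOf.mp h1
      · intro hh
        have hhN : h ∈ N := by
          have h2 : (x : G)⁻¹ * ((x : G) * h * (x : G)⁻¹) * (x : G) ∈ N :=
            N.mul_mem (N.mul_mem (N.inv_mem x.2) (hPN hh)) x.2
          have h3 : (x : G)⁻¹ * ((x : G) * h * (x : G)⁻¹) * (x : G) = h := by group
          rwa [h3] at h2
        have h1 := (hx ⟨h, hhN⟩).mpr (Subgroup.mem_subgroupOf.mpr hh)
        exact Subgroup.mem_subgroupOf.mp h1
    have hxc := hNC (Subgroup.mem_inf.mpr ⟨x.2, hxn⟩)
    rw [Subgroup.mem_centralizer_iff] at hxc ⊢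
    intro y hy
    apply Subtype.ext
    exact hxc (y : G) (Subgroup.mem_subgroupOf.mp hy)
  have hcompl := MonoidHom.ker_transferSylow_isComplement' (P.subtype hPN) hP'
  have hnd := MonoidHom.not_dvd_card_ker_transferSylow (P.subtype hPN) hP'
  -- characterisation of the kernel
  have hchar : ∀ x : N, x ∈ (MonoidHom.transferSylow (P.subtype hPN) hP').ker ↔
      ¬ p ∣ orderOf x := by
    intro x
    constructor
    · intro hx hdvd
      apply hnd
      have h1 : orderOf (⟨x, hx⟩ : (MonoidHom.transferSylow (P.subtype hPN) hP').ker) ∣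
          Nat.card (MonoidHom.transferSylow (P.subtype hPN) hP').ker := orderOf_dvd_natCard _
      have h2 : orderOf (⟨x, hx⟩ : (MonoidHom.transferSylow (P.subtype hPN) hP').ker)
          = orderOf x := Subgroup.orderOf_mk x hx
      rw [h2] at h1
      exact hdvd.trans h1
    · intro hx
      rw [MonoidHom.mem_ker]
      have h1 : orderOf (MonoidHom.transferSylow (P.subtype hPN) hP' x) ∣ orderOf x :=
        orderOf_map_dvd _ x
      obtain ⟨k, hk⟩ := (IsPGroup.iff_orderOf.mp (P.subtype hPN).isPGroup')
        (MonoidHom.transferSylow (P.subtype hPN) hP' x)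
      have h3 : k = 0 := by
        by_contra hk0
        apply hx
        have : p ∣ p ^ k := dvd_pow_self p hk0
        rw [← hk] at this
        exact this.trans h1
      rw [h3, pow_zero] at hk
      exact orderOf_eq_one_iff.mp hk
  refine ⟨(MonoidHom.transferSylow (P.subtype hPN) hP').ker.map N.subtype, ?_, ?_, ?_, ?_⟩
  · constructor
    rintro _ ⟨x, hx, rfl⟩ g
    have hmem : g * (x : G) * g⁻¹ ∈ N := ‹N.Normal›.conj_mem _ x.2 g
    refine ⟨⟨g * (x : G) * g⁻¹, hmem⟩, ?_, rfl⟩
    rw [SetLike.mem_coe, hchar] at hx ⊢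
    have h1 : orderOf (⟨g * (x : G) * g⁻¹, hmem⟩ : N) = orderOf (g * (x : G) * g⁻¹) :=
      Subgroup.orderOf_mk _ hmem
    have h2 : orderOf (g * (x : G) * g⁻¹) = orderOf (x : G) :=
      (MulAut.conj g).orderOf_eq (x : G)
    rw [h1, h2, Subgroup.orderOf_coe]
    exact hx
  · rintro _ ⟨x, -, rfl⟩
    exact x.2
  · have h1 := hcompl.card_mul_card
    have h2 : Nat.card ((MonoidHom.transferSylow (P.subtype hPN) hP').ker.map N.subtype)
        = Nat.card (MonoidHom.transferSylow (P.subtype hPN) hP').ker :=
      Subgroup.card_map_of_injective N.subtype_injective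
    have h3 : Nat.card ((P.subtype hPN : Sylow p N) : Subgroup N) = Nat.card (P : Subgroup G) := by
      rw [Sylow.coe_subtype]
      exact Nat.card_congr (Subgroup.subgroupOfEquivOfLe hPN).toEquiv
    rw [h2, ← h3]
    exact h1
  · rw [Subgroup.card_map_of_injective N.subtype_injective]
    exact hnd

end Cfsg.Agent.Helper78.O7920BT
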