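-- helper78 library: piece C45C of CALL S2490 (helper10).
import Mathlib
import Cfsg.Agent.Helper10.O7920Defs

set_option autoImplicit false
set_option linter.unusedVariables false

namespace Cfsg.Agent.Helper78.O7920C45C

open Subgroup Cfsg.Agent.Helper10.O7920

theorem c45c {G : Type*} [Group G] [Finite G] (hG : Nat.card G = 7920)
    (h45 : Nat.card (Sylow 11 G) = 45) (ha : C45aStmt G) (hb : C45bStmt G) : C45cStmt G := by
  classical
  have : Fact (Nat.Prime 11) := ⟨by norm_num⟩
  have : Fintype (Sylow 11 G) := Fintype.ofFinite _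
  intro u hu hue P huN
  -- the involution `v = u ^ 2`
  have hv2 : orderOf (u ^ 2) = 2 := by
    rw [orderOf_pow' u (by norm_num), hu]
    decide
  have hve : u ^ 2 ∈ evenSub G := (evenSub G).pow_mem hue 2
  have hvN : u ^ 2 ∈ normalizer ((P : Subgroup G) : Set G) := Subgroup.pow_mem _ huN 2
  have hvC := hb (u ^ 2) hv2 hve P hvN
  have hvfix : ∀ Q : Sylow 11 G, (u ^ 2) • Q = Q → Q = P := ha (u ^ 2) hv2 hve P hvC
  have huP : u • P = P := Sylow.smul_eq_iff_mem_normalizer.mpr huN
  -- the permutation induced by `u`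
  have h4 : (MulAction.toPermHom G (Sylow 11 G) u) ^ 4 = 1 := by
    rw [← map_pow, ← hu, pow_orderOf_eq_one, map_one]
  have hfix : ∀ Q : Sylow 11 G, ((MulAction.toPermHom G (Sylow 11 G) u) ^ 2) Q = Q →
      (MulAction.toPermHom G (Sylow 11 G) u) Q = Q := by
    intro Q hQ
    rw [← map_pow] at hQ
    have hQ' : (u ^ 2) • Q = Q := hQ
    rw [hvfix Q hQ']
    exact huP
  have hfp : Fintype.card (Function.fixedPoints (MulAction.toPermHom G (Sylow 11 G) u)) = 1 := by
    rw [Fintype.card_eq_one_iff]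
    refine ⟨⟨P, huP⟩, ?_⟩
    rintro ⟨Q, hQ⟩
    apply Subtype.ext
    apply hvfix
    have hQ' : u • Q = Q := hQ
    rw [pow_two, mul_smul, hQ', hQ']
  have hcard : Fintype.card (Function.fixedPoints (MulAction.toPermHom G (Sylow 11 G) u)) + 4 * 11
      = Fintype.card (Sylow 11 G) := by
    rw [hfp, ← Nat.card_eq_fintype_card, h45]
  have hsign := sign_of_order_four (MulAction.toPermHom G (Sylow 11 G) u) h4 hfix 11 hcard
    (by decide)
  have hsign' : Equiv.Perm.sign (MulAction.toPermHom G (Sylow 11 G) u) = 1 :=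
    sign_eq_one_of_mem_evenSub hue
  rw [hsign'] at hsign
  exact absurd hsign (by decide)

end Cfsg.Agent.Helper78.O7920C45C
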