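import Mathlib

/-!
Piece T1B of CALL S1906 (helper14): orbit parity for the action of a Sylow `2`-subgroup on its
own cosets.
-/

set_option autoImplicit false
set_option linter.style.haveILetI false

namespace Cfsg.Agent.Helper78.S1906P

section transfer

variable {G : Type*} [Group G] [Finite G] {A : Type*} [CommGroup A]

/-- T1B (orbit parity). -/
theorem s1906_t1b (X : Sylow 2 G) (ψ : G ⧸ (X : Subgroup G) → A) (c : A) (hc : c * c = 1)
    (hinv : ∀ x ∈ (X : Subgroup G), ∀ g : G,
      ψ ((x * g : G) : G ⧸ (X : Subgroup G)) = ψ ((g : G) : G ⧸ (X : Subgroup G)))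
    (hsq : ∀ q, ψ q * ψ q = 1)
    (hN : ∀ h : G, (∀ x ∈ (X : Subgroup G), h⁻¹ * x * h ∈ (X : Subgroup G)) →
      ψ ((h : G) : G ⧸ (X : Subgroup G)) = c) :
    ∏ᶠ q : G ⧸ (X : Subgroup G), ψ q = c := by
  classical
  have : Fintype (G ⧸ (X : Subgroup G)) := Fintype.ofFinite _
  rw [finprod_eq_prod_of_fintype]
  letI act : MulAction ↥(X : Subgroup G) (G ⧸ (X : Subgroup G)) :=
    MulAction.compHom (G ⧸ (X : Subgroup G)) (X : Subgroup G).subtype
  have hsmul : ∀ (x : ↥(X : Subgroup G)) (g : G),
      x • ((g : G) : G ⧸ (X : Subgroup G)) = (((x : G) * g : G) : G ⧸ (X : Subgroup G)) :=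
    fun x g => rfl
  have hψ : ∀ (x : ↥(X : Subgroup G)) (q : G ⧸ (X : Subgroup G)), ψ (x • q) = ψ q := by
    intro x q
    obtain ⟨g, rfl⟩ := QuotientGroup.mk_surjective q
    rw [hsmul]
    exact hinv x x.2 g
  have hX2 : IsPGroup 2 ↥(X : Subgroup G) := X.isPGroup'
  have : Fintype (MulAction.orbitRel.Quotient (↥(X : Subgroup G)) (G ⧸ (X : Subgroup G))) :=
    Fintype.ofFinite _
  have key : ∀ ω : MulAction.orbitRel.Quotient (↥(X : Subgroup G)) (G ⧸ (X : Subgroup G)),
      ∏ i ∈ Finset.univ.filter (fun q : G ⧸ (X : Subgroup G) =>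
        (Quotient.mk'' q : MulAction.orbitRel.Quotient (↥(X : Subgroup G))
          (G ⧸ (X : Subgroup G))) = ω), ψ i =
      ∏ i ∈ Finset.univ.filter (fun q : G ⧸ (X : Subgroup G) =>
        (Quotient.mk'' q : MulAction.orbitRel.Quotient (↥(X : Subgroup G))
          (G ⧸ (X : Subgroup G))) = ω), c := by
    intro ω
    obtain ⟨r, rfl⟩ := Quotient.exists_rep ω
    have hmemS : ∀ q : G ⧸ (X : Subgroup G),
        (Quotient.mk'' q : MulAction.orbitRel.Quotient (↥(X : Subgroup G))
          (G ⧸ (X : Subgroup G))) = Quotient.mk'' r ↔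
          q ∈ MulAction.orbit (↥(X : Subgroup G)) r := by
      intro q
      rw [Quotient.eq'']
      exact MulAction.orbitRel_apply
    have hfilter : Finset.univ.filter (fun q : G ⧸ (X : Subgroup G) =>
        (Quotient.mk'' q : MulAction.orbitRel.Quotient (↥(X : Subgroup G))
          (G ⧸ (X : Subgroup G))) = Quotient.mk'' r) =
        Finset.univ.filter (fun q : G ⧸ (X : Subgroup G) =>
          q ∈ MulAction.orbit (↥(X : Subgroup G)) r) := by
      apply Finset.filter_congr
      intro q _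
      exact hmemS q
    show ∏ i ∈ Finset.univ.filter (fun q : G ⧸ (X : Subgroup G) =>
        (Quotient.mk'' q : MulAction.orbitRel.Quotient (↥(X : Subgroup G))
          (G ⧸ (X : Subgroup G))) = Quotient.mk'' r), ψ i =
      ∏ i ∈ Finset.univ.filter (fun q : G ⧸ (X : Subgroup G) =>
        (Quotient.mk'' q : MulAction.orbitRel.Quotient (↥(X : Subgroup G))
          (G ⧸ (X : Subgroup G))) = Quotient.mk'' r), c
    rw [hfilter]
    obtain ⟨S, hS⟩ : ∃ S : Finset (G ⧸ (X : Subgroup G)), S = Finset.univ.filter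
        (fun q : G ⧸ (X : Subgroup G) => q ∈ MulAction.orbit (↥(X : Subgroup G)) r) := ⟨_, rfl⟩
    rw [← hS]
    have hSmem : ∀ q, q ∈ S ↔ q ∈ MulAction.orbit (↥(X : Subgroup G)) r := by
      intro q; rw [hS]; simp
    have hconst : ∀ q ∈ S, ψ q = ψ r := by
      intro q hq
      obtain ⟨x, rfl⟩ := (hSmem q).mp hq
      exact hψ x r
    rw [Finset.prod_eq_pow_card hconst, Finset.prod_const]
    obtain ⟨n, hn⟩ := hX2.card_orbit r
    have hcard : S.card = 2 ^ n := by
      rw [← hn, Nat.card_eq_fintype_card, Fintype.card_subtype, hS]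
    rcases Nat.eq_zero_or_pos n with h0 | hpos
    · -- a fixed point
      rw [h0, pow_zero] at hcard
      obtain ⟨a, ha⟩ := Finset.card_eq_one.mp hcard
      have hra : r = a := by
        have : r ∈ S := (hSmem r).mpr (MulAction.mem_orbit_self r)
        rw [ha] at this
        exact Finset.mem_singleton.mp this
      have hfixed : ∀ x : ↥(X : Subgroup G), x • r = r := by
        intro x
        have : x • r ∈ S := (hSmem _).mpr (MulAction.mem_orbit r x)
        rw [ha] at this
        rw [Finset.mem_singleton.mp this, hra]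
      obtain ⟨h, rfl⟩ := QuotientGroup.mk_surjective r
      have hc' : ψ ((h : G) : G ⧸ (X : Subgroup G)) = c := by
        apply hN
        intro x hx
        have h1 := hfixed ⟨x⁻¹, (X : Subgroup G).inv_mem hx⟩
        rw [hsmul, QuotientGroup.eq] at h1
        have e : (x⁻¹ * h)⁻¹ * h = h⁻¹ * x * h := by group
        rw [← e]
        exact h1
      rw [hc']
    · have h2 : S.card = 2 * 2 ^ (n - 1) := by
        rw [hcard, ← pow_succ', Nat.sub_add_cancel hpos]
      rw [h2, pow_mul, pow_mul, pow_two, pow_two, hsq, hc]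
  calc ∏ q : G ⧸ (X : Subgroup G), ψ q
      = ∏ ω : MulAction.orbitRel.Quotient (↥(X : Subgroup G)) (G ⧸ (X : Subgroup G)),
          ∏ i ∈ Finset.univ.filter (fun q : G ⧸ (X : Subgroup G) =>
            (Quotient.mk'' q : MulAction.orbitRel.Quotient (↥(X : Subgroup G))
              (G ⧸ (X : Subgroup G))) = ω), ψ i :=
        (Finset.prod_fiberwise _ _ _).symm
    _ = ∏ ω : MulAction.orbitRel.Quotient (↥(X : Subgroup G)) (G ⧸ (X : Subgroup G)),
          ∏ i ∈ Finset.univ.filter (fun q : G ⧸ (X : Subgroup G) =>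
            (Quotient.mk'' q : MulAction.orbitRel.Quotient (↥(X : Subgroup G))
              (G ⧸ (X : Subgroup G))) = ω), c :=
        Finset.prod_congr rfl (fun ω _ => key ω)
    _ = ∏ q : G ⧸ (X : Subgroup G), c := Finset.prod_fiberwise _ _ _
    _ = c ^ Fintype.card (G ⧸ (X : Subgroup G)) := by
        rw [Finset.prod_const, Finset.card_univ]
    _ = c := by
        have hidx : ¬ 2 ∣ (X : Subgroup G).index := X.not_dvd_index
        rw [Subgroup.index_eq_card, Nat.card_eq_fintype_card] at hidx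
        obtain ⟨k, hk⟩ := Nat.odd_iff.mpr (Nat.two_dvd_ne_zero.mp hidx)
        rw [hk, pow_succ, pow_mul, pow_two, hc, one_pow, one_mul]

end transfer

end Cfsg.Agent.Helper78.S1906P
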