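-- helper78 library: piece H5 of CALL S3620 (helper32).
import Mathlib
import Cfsg.Agent.Helper32.JorDefs

set_option autoImplicit false
set_option linter.unusedSectionVars false

namespace Cfsg.Agent.Helper78.JorH5

open Equiv Cfsg.Agent.Helper32.Jor

/-- A Jordan set with at least two points is not mapped to a single point by an equivariant
surjection onto a faithful `G`-set. -/
theorem not_const_on_jordan {G Ω X : Type*} [Group G] [MulAction G Ω] [Fintype Ω] [DecidableEq Ω]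
    [MulAction G X] [Fintype X] [DecidableEq X] [FaithfulSMul G X]
    (π : Ω → X) (hπ : ∀ (g : G) (ω : Ω), π (g • ω) = g • π ω) (hπs : Function.Surjective π)
    (Γ : Finset Ω) (hJ : ∀ a ∈ Γ, ∀ b ∈ Γ, ∃ g : G, g • a = b ∧ ∀ x, x ∉ Γ → g • x = x)
    (h2 : 2 ≤ Γ.card) (x₀ : X) (hx₀ : ∀ δ ∈ Γ, π δ = x₀) : False := by
  obtain ⟨a, ha, b, hb, hab⟩ := Finset.one_lt_card.mp (by omega : 1 < Γ.card)
  obtain ⟨g, hgab, hgfix⟩ := hJ a ha b hb
  have hgΓ : ∀ ξ ∈ Γ, g • ξ ∈ Γ := by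
    intro ξ hξ
    by_contra hn
    have h1 := hgfix _ hn
    have h3 : g • ξ = ξ := smul_left_cancel g h1
    rw [h3] at hn
    exact hn hξ
  have hg1 : g = 1 := by
    apply FaithfulSMul.eq_of_smul_eq_smul (α := X)
    intro x
    obtain ⟨ξ, rfl⟩ := hπs x
    rw [one_smul, ← hπ]
    by_cases hξ : ξ ∈ Γ
    · rw [hx₀ _ (hgΓ ξ hξ), hx₀ _ hξ]
    · rw [hgfix ξ hξ]
  rw [hg1, one_smul] at hgab
  exact hab hgab

theorem jordan_image {G Ω X : Type*} [Group G] [MulAction G Ω] [Fintype Ω] [DecidableEq Ω]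
    [MulAction G X] [Fintype X] [DecidableEq X] [FaithfulSMul G X]
    (π : Ω → X) (hπ : ∀ (g : G) (ω : Ω), π (g • ω) = g • π ω) (hπs : Function.Surjective π)
    (Γ : Finset Ω) (hJ : ∀ a ∈ Γ, ∀ b ∈ Γ, ∃ g : G, g • a = b ∧ ∀ x, x ∉ Γ → g • x = x)
    (h2 : 2 ≤ Γ.card) :
    (∀ ω, ω ∈ Γ ↔ π ω ∈ Γ.image π) ∧ 2 ≤ (Γ.image π).card ∧
      ∀ a ∈ Γ.image π, ∀ b ∈ Γ.image π, ∃ g : G, g • a = b ∧ ∀ x, x ∉ Γ.image π → g • x = x := by
  have hsat : ∀ ω, π ω ∈ Γ.image π → ω ∈ Γ := by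
    intro ω hω
    by_contra hn
    obtain ⟨γ, hγ, hγω⟩ := Finset.mem_image.mp hω
    apply not_const_on_jordan π hπ hπs Γ hJ h2 (π ω)
    intro δ hδ
    obtain ⟨g, hg, hgfix⟩ := hJ γ hγ δ hδ
    rw [← hg, hπ, hγω, ← hπ, hgfix ω hn]
  refine ⟨fun ω => ⟨fun h => Finset.mem_image_of_mem π h, hsat ω⟩, ?_, ?_⟩
  · by_contra hlt
    have hle : (Γ.image π).card ≤ 1 := by omega
    rw [Finset.card_le_one] at hle
    obtain ⟨γ₀, hγ₀⟩ := Finset.card_pos.mp (by omega : 0 < Γ.card)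
    apply not_const_on_jordan π hπ hπs Γ hJ h2 (π γ₀)
    intro δ hδ
    exact hle _ (Finset.mem_image_of_mem π hδ) _ (Finset.mem_image_of_mem π hγ₀)
  · intro a ha b hb
    obtain ⟨α, hα, rfl⟩ := Finset.mem_image.mp ha
    obtain ⟨β, hβ, rfl⟩ := Finset.mem_image.mp hb
    obtain ⟨g, hg, hgfix⟩ := hJ α hα β hβ
    refine ⟨g, by rw [← hπ, hg], ?_⟩
    intro x hx
    obtain ⟨ξ, rfl⟩ := hπs x
    have hξ : ξ ∉ Γ := fun h => hx (Finset.mem_image_of_mem π h)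
    rw [← hπ, hgfix ξ hξ]

end Cfsg.Agent.Helper78.JorH5
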