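-- helper78 library: piece P7a of CALL S2478 (helper40).
import Mathlib
import Cfsg.Agent.Helper40.KGLDefs

set_option autoImplicit false

namespace Cfsg.Agent.Helper78

open Polynomial Cfsg.Agent.Helper40.KGL
open scoped DirectSum

universe u v

theorem kgl_card_fiber {α : Type*} {κ : Type*} [Fintype κ] [DecidableEq α] (g : κ → α) (a : α) :
    Fintype.card {i // g i = a} = Multiset.count a (Finset.univ.val.map g) := by
  classical
  rw [Multiset.count_map, Fintype.card_subtype]
  show Multiset.card (Multiset.filter (fun i => g i = a) Finset.univ.val) = _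
  congr 1
  apply Multiset.filter_congr
  intro x _
  exact eq_comm

theorem exists_equiv_of_map_eq {α : Type*} {ι ι' : Type*} [Fintype ι] [Fintype ι']
    (f : ι → α) (f' : ι' → α)
    (h : Finset.univ.val.map f = Finset.univ.val.map f') :
    ∃ σ : ι ≃ ι', ∀ i, f' (σ i) = f i := by
  classical
  have hcard : ∀ a : α, Fintype.card {i // f i = a} = Fintype.card {i // f' i = a} := by
    intro a
    rw [kgl_card_fiber f a, kgl_card_fiber f' a, h]
  exact ⟨Equiv.ofFiberEquiv (fun a => Fintype.equivOfCardEq (hcard a)),
    fun i => Equiv.ofFiberEquiv_map _ i⟩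

end Cfsg.Agent.Helper78
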