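import Cfsg.Agent.Helper78.StructConst
import Cfsg.Agent.Helper77.Defect

/-!
# Tools for counting blocks with a given defect group

Everything lives in `namespace Cfsg.Agent.Helper78`.

* `exists_det_ne_zero`: if `W * Θ` is an invertible scalar matrix, some maximal minor of `W`
  is nonzero.
* `sum_centralChar_mul_subgroup_two`: the two-class version of `sum_centralChar_mul_subgroup`.
* `centralChar_mem_of_factorization_lt`, `irr_mem_of_factorization_gt`,
  `ordCompl_mul_centralChar`: `p`-adic comparison of `ω_χ(z)` and `χ(z)`.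
* `isDefectClass_conj`, `isDefectGroup_of_conj_le`: conjugates of defect classes/groups.
-/

set_option autoImplicit false

namespace Cfsg.Agent.Helper78

open Cfsg Cfsg.Agent.Helper81

universe u

/-- If `W * Θ` is an invertible scalar matrix (`W` of size `r × X`), then some `r × r` minor of
`W` is nonzero. -/
theorem exists_det_ne_zero {F : Type*} [Field F] {X : Type*} [Fintype X] {r : ℕ}
    (W : Matrix (Fin r) X F) (Θ : Matrix X (Fin r) F) (m : F) (hm : m ≠ 0)
    (h : W * Θ = m • (1 : Matrix (Fin r) (Fin r) F)) :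
    ∃ e : Fin r → X, (Matrix.of fun i k => W i (e k)).det ≠ 0 := by
  classical
  have hsurj : Function.Surjective W.mulVecLin := by
    intro v
    refine ⟨Θ.mulVec (m⁻¹ • v), ?_⟩
    rw [Matrix.mulVecLin_apply, Matrix.mulVec_mulVec, h, Matrix.smul_mulVec, Matrix.one_mulVec,
      smul_smul, mul_inv_cancel₀ hm, one_smul]
  have hspan : Submodule.span F (Set.range W.col) = ⊤ := by
    rw [← Matrix.range_mulVecLin]
    exact LinearMap.range_eq_top.mpr hsurj
  obtain ⟨b, hb, hbspan, hli⟩ := exists_linearIndependent F (Set.range W.col)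
  have hbtop : ⊤ ≤ Submodule.span F (Set.range ((↑) : b → Fin r → F)) := by
    rw [Subtype.range_coe, hbspan, hspan]
  let bas : Module.Basis b F (Fin r → F) := Module.Basis.mk hli hbtop
  have : Finite b := Module.Finite.finite_basis bas
  let _ : Fintype b := Fintype.ofFinite b
  have hcard : Fintype.card b = r := by
    rw [← Module.finrank_eq_card_basis bas, Module.finrank_fin_fun]
  let e₀ : Fin r ≃ b := (Fintype.equivFinOfCardEq hcard).symm
  have hex : ∀ k : Fin r, ∃ χ : X, W.col χ = (e₀ k : Fin r → F) := fun k => hb (e₀ k).2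
  choose e he using hex
  refine ⟨e, ?_⟩
  have hli2 : LinearIndependent F (Matrix.of fun i k => W i (e k)).col := by
    have h1 : (Matrix.of fun i k => W i (e k)).col = ((↑) : b → Fin r → F) ∘ e₀ := by
      funext k
      rw [Function.comp_apply, ← he k]
      rfl
    rw [h1]
    exact hli.comp _ e₀.injective
  have hunit := Matrix.linearIndependent_cols_iff_isUnit.mp hli2
  exact ((Matrix.isUnit_iff_isUnit_det _).mp hunit).ne_zero

section

variable {G : Type u} [Group G] [Fintype G]

open Classical in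
/-- If conjugates `g` of `z` and `h` of `z'` with `g h⁻¹ ∈ S` are always equal, then
`∑_χ ω_χ(z) χ(z'⁻¹) ∑_{s ∈ S} χ(s)` is `|G|` if `z ∼ z'` and `0` otherwise. -/
theorem sum_centralChar_mul_subgroup_two [Fintype (IrrCharacter G)] (z z' : G) (S : Subgroup G)
    [Fintype S] (hS : ∀ g h : G, IsConj z g → IsConj z' h → g * h⁻¹ ∈ S → g = h) :
    ∑ χ : IrrCharacter G, centralChar (χ : G → ℂ) z * (χ : G → ℂ) z'⁻¹ *
      ∑ s : S, (χ : G → ℂ) s = if IsConj z z' then (Nat.card G : ℂ) else 0 := by
  have h1 : ∀ s : S, ∑ χ : IrrCharacter G, centralChar (χ : G → ℂ) z * (χ : G → ℂ) z'⁻¹ *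
      (χ : G → ℂ) (s : G)⁻¹ =
        if (s : G) = 1 then (if IsConj z z' then (Nat.card G : ℂ) else 0) else 0 := by
    intro s
    have := sum_irr_omega_mul_mul_inv (classInd_isClassFunction z) z'⁻¹ (s : G)
    simp only [omega_classInd] at this
    rw [this]
    by_cases hs : (s : G) = 1
    · rw [if_pos hs, hs]
      rw [Finset.sum_eq_single z']
      · have hc1 : classInd z z' = if IsConj z z' then 1 else 0 := by
          simp only [classInd]
        have hf : Finset.univ.filter (fun x : G => x * (z' * z'⁻¹) * x⁻¹ = 1) = Finset.univ :=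
          Finset.filter_true_of_mem (by intro x _; simp)
        rw [hc1, hf, Finset.card_univ, Nat.card_eq_fintype_card]
        split_ifs <;> simp
      · intro g _ hgz
        have : Finset.univ.filter (fun x : G => x * (g * z'⁻¹) * x⁻¹ = 1) = ∅ := by
          rw [Finset.filter_eq_empty_iff]
          intro x _ hx
          apply hgz
          rw [conj_eq_one_iff] at hx
          exact mul_inv_eq_one.mp hx
        rw [this]; simp
      · intro h; exact absurd (Finset.mem_univ _) h
    · rw [if_neg hs]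
      apply Finset.sum_eq_zero
      intro g _
      by_cases hg : IsConj z g
      · have : Finset.univ.filter (fun x : G => x * (g * z'⁻¹) * x⁻¹ = (s : G)) = ∅ := by
          rw [Finset.filter_eq_empty_iff]
          intro x _ hx
          apply hs
          have hg' : IsConj z (x * g * x⁻¹) := hg.trans (isConj_iff.mpr ⟨x, rfl⟩)
          have hh' : IsConj z' (x * z' * x⁻¹) := isConj_iff.mpr ⟨x, rfl⟩
          have e : (x * g * x⁻¹) * (x * z' * x⁻¹)⁻¹ = (s : G) := by rw [← hx]; group
          have hmem : (x * g * x⁻¹) * (x * z' * x⁻¹)⁻¹ ∈ S := by rw [e]; exact s.2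
          have := hS _ _ hg' hh' hmem
          rw [this] at e
          rw [← e, mul_inv_cancel]
        rw [this]; simp
      · have hc0 : classInd z g = 0 := by
          simp only [classInd]; rw [if_neg hg]
        rw [hc0, zero_mul]
  calc ∑ χ : IrrCharacter G, centralChar (χ : G → ℂ) z * (χ : G → ℂ) z'⁻¹ *
        ∑ s : S, (χ : G → ℂ) s
      = ∑ χ : IrrCharacter G, ∑ s : S, centralChar (χ : G → ℂ) z * (χ : G → ℂ) z'⁻¹ *
          (χ : G → ℂ) (s : G)⁻¹ := by
        refine Finset.sum_congr rfl fun χ _ => ?_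
        rw [← Finset.mul_sum]
        congr 1
        exact (Equiv.sum_comp (Equiv.inv S) (fun s : S => (χ : G → ℂ) (s : G))).symm
    _ = ∑ s : S, ∑ χ : IrrCharacter G, centralChar (χ : G → ℂ) z * (χ : G → ℂ) z'⁻¹ *
          (χ : G → ℂ) (s : G)⁻¹ := Finset.sum_comm
    _ = ∑ s : S, if (s : G) = 1 then (if IsConj z z' then (Nat.card G : ℂ) else 0) else 0 :=
        Finset.sum_congr rfl fun s _ => h1 s
    _ = if IsConj z z' then (Nat.card G : ℂ) else 0 := by
        rw [Finset.sum_eq_single (1 : S)]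
        · simp
        · intro s _ hs
          rw [if_neg]
          intro h; exact hs (Subtype.ext h)
        · intro h; exact absurd (Finset.mem_univ _) h

variable {M : Ideal AlgInt}

/-- If `v_p(χ(1)) < v_p([G : C(z)])` then the central character value `ω_χ(z)` lies in `M`. -/
theorem centralChar_mem_of_factorization_lt {p : ℕ} (hM : IsPModular p M) (ψ : IrrCharacter G)
    (z : G) (hlt : (charDegree (ψ : G → ℂ)).factorization p <
      ((Subgroup.centralizer ({z} : Set G)).index).factorization p) :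
    (⟨centralChar (ψ : G → ℂ) z, centralChar_mem_algInt ψ z⟩ : AlgInt) ∈ M := by
  have hP : M.IsPrime := isPrime_of_isPModular hM
  have hp : p.Prime := hM.1
  set d := charDegree (ψ : G → ℂ) with hd
  set v := d.factorization p with hv
  have hd0 : d ≠ 0 := (charDegree_pos ψ).ne'
  set k := (Subgroup.centralizer ({z} : Set G)).index with hk
  have hk0 : k ≠ 0 := Subgroup.index_ne_zero_of_finite
  have hdvd : p ^ (v + 1) ∣ k := by
    rw [hp.pow_dvd_iff_le_factorization hk0]
    exact hlt
  obtain ⟨k', hk'⟩ := hdvd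
  have hd' : p ^ v * (d / p ^ v) = d := Nat.ordProj_mul_ordCompl_eq_self d p
  have hnd : ¬ p ∣ d / p ^ v := Nat.not_dvd_ordCompl hp hd0
  set d' := d / p ^ v with hd'def
  have hψ1 : (ψ : G → ℂ) 1 = (d : ℂ) := irr_one_eq_charDegree ψ
  have hdC : (d : ℂ) ≠ 0 := by exact_mod_cast hd0
  have hpv : ((p : ℂ) ^ v) ≠ 0 := pow_ne_zero _ (by exact_mod_cast hp.ne_zero)
  have key : (d' : ℂ) * centralChar (ψ : G → ℂ) z = (p : ℂ) * (k' : ℂ) * (ψ : G → ℂ) z := by
    have e1 : (d : ℂ) * centralChar (ψ : G → ℂ) z = (k : ℂ) * (ψ : G → ℂ) z := by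
      rw [centralChar, hψ1, ← hk]; field_simp
    have e2 : (d : ℂ) = (p : ℂ) ^ v * (d' : ℂ) := by rw [← hd']; push_cast; ring
    have e3 : (k : ℂ) = (p : ℂ) ^ v * ((p : ℂ) * (k' : ℂ)) := by rw [hk']; push_cast; ring
    rw [e2, e3] at e1
    have e4 : (p : ℂ) ^ v * ((d' : ℂ) * centralChar (ψ : G → ℂ) z) =
        (p : ℂ) ^ v * ((p : ℂ) * (k' : ℂ) * (ψ : G → ℂ) z) := by
      rw [← mul_assoc, e1]; ring
    exact mul_left_cancel₀ hpv e4
  have key' : (d' : AlgInt) * (⟨centralChar (ψ : G → ℂ) z, centralChar_mem_algInt ψ z⟩ : AlgInt) =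
      (p : AlgInt) * ((k' : AlgInt) * ⟨(ψ : G → ℂ) z, irr_mem_algInt ψ z⟩) := by
    apply Subtype.ext
    push_cast
    rw [key]; ring
  have hmem : (d' : AlgInt) *
      (⟨centralChar (ψ : G → ℂ) z, centralChar_mem_algInt ψ z⟩ : AlgInt) ∈ M := by
    rw [key']; exact M.mul_mem_right _ hM.2.2
  exact (hP.mem_or_mem hmem).resolve_left (fun h => hnd ((natCast_mem_iff hM d').mp h))

/-- If `v_p([G : C(z)]) < v_p(χ(1))` then the character value `χ(z)` lies in `M`. -/
theorem irr_mem_of_factorization_gt {p : ℕ} (hM : IsPModular p M) (ψ : IrrCharacter G)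
    (z : G) (hgt : ((Subgroup.centralizer ({z} : Set G)).index).factorization p <
      (charDegree (ψ : G → ℂ)).factorization p) :
    (⟨(ψ : G → ℂ) z, irr_mem_algInt ψ z⟩ : AlgInt) ∈ M := by
  have hP : M.IsPrime := isPrime_of_isPModular hM
  have hp : p.Prime := hM.1
  set d := charDegree (ψ : G → ℂ) with hd
  have hd0 : d ≠ 0 := (charDegree_pos ψ).ne'
  set k := (Subgroup.centralizer ({z} : Set G)).index with hk
  set w := k.factorization p with hw
  have hk0 : k ≠ 0 := Subgroup.index_ne_zero_of_finite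
  have hdvd : p ^ (w + 1) ∣ d := by
    rw [hp.pow_dvd_iff_le_factorization hd0]
    exact hgt
  obtain ⟨d'', hd''⟩ := hdvd
  have hk' : p ^ w * (k / p ^ w) = k := Nat.ordProj_mul_ordCompl_eq_self k p
  have hnk : ¬ p ∣ k / p ^ w := Nat.not_dvd_ordCompl hp hk0
  set k' := k / p ^ w with hk'def
  have hψ1 : (ψ : G → ℂ) 1 = (d : ℂ) := irr_one_eq_charDegree ψ
  have hdC : (d : ℂ) ≠ 0 := by exact_mod_cast hd0
  have hpw : ((p : ℂ) ^ w) ≠ 0 := pow_ne_zero _ (by exact_mod_cast hp.ne_zero)
  have key : (k' : ℂ) * (ψ : G → ℂ) z = (p : ℂ) * (d'' : ℂ) * centralChar (ψ : G → ℂ) z := by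
    have e1 : (d : ℂ) * centralChar (ψ : G → ℂ) z = (k : ℂ) * (ψ : G → ℂ) z := by
      rw [centralChar, hψ1, ← hk]; field_simp
    have e2 : (k : ℂ) = (p : ℂ) ^ w * (k' : ℂ) := by rw [← hk']; push_cast; ring
    have e3 : (d : ℂ) = (p : ℂ) ^ w * ((p : ℂ) * (d'' : ℂ)) := by rw [hd'']; push_cast; ring
    rw [e2, e3] at e1
    have e4 : (p : ℂ) ^ w * ((k' : ℂ) * (ψ : G → ℂ) z) =
        (p : ℂ) ^ w * ((p : ℂ) * (d'' : ℂ) * centralChar (ψ : G → ℂ) z) := by
      rw [← mul_assoc, ← e1]; ring
    exact mul_left_cancel₀ hpw e4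
  have key' : (k' : AlgInt) * (⟨(ψ : G → ℂ) z, irr_mem_algInt ψ z⟩ : AlgInt) =
      (p : AlgInt) * ((d'' : AlgInt) * ⟨centralChar (ψ : G → ℂ) z, centralChar_mem_algInt ψ z⟩) := by
    apply Subtype.ext
    push_cast
    rw [key]; ring
  have hmem : (k' : AlgInt) * (⟨(ψ : G → ℂ) z, irr_mem_algInt ψ z⟩ : AlgInt) ∈ M := by
    rw [key']; exact M.mul_mem_right _ hM.2.2
  exact (hP.mem_or_mem hmem).resolve_left (fun h => hnk ((natCast_mem_iff hM k').mp h))

omit [Fintype G] in
/-- If `v_p(χ(1)) = v_p([G : C(z)])`, then `χ(1)_{p'} ω_χ(z) = [G : C(z)]_{p'} χ(z)`. -/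
theorem ordCompl_mul_centralChar (p : ℕ) (hp : p.Prime) (ψ : IrrCharacter G) (z : G)
    (heq : (charDegree (ψ : G → ℂ)).factorization p =
      ((Subgroup.centralizer ({z} : Set G)).index).factorization p) :
    ((charDegree (ψ : G → ℂ) / p ^ (charDegree (ψ : G → ℂ)).factorization p : ℕ) : ℂ) *
        centralChar (ψ : G → ℂ) z =
      (((Subgroup.centralizer ({z} : Set G)).index /
        p ^ ((Subgroup.centralizer ({z} : Set G)).index).factorization p : ℕ) : ℂ) *
          (ψ : G → ℂ) z := by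
  set d := charDegree (ψ : G → ℂ) with hd
  have hd0 : d ≠ 0 := (charDegree_pos ψ).ne'
  set k := (Subgroup.centralizer ({z} : Set G)).index with hk
  rw [← heq]
  set v := d.factorization p with hv
  have hd' : p ^ v * (d / p ^ v) = d := Nat.ordProj_mul_ordCompl_eq_self d p
  have hk' : p ^ v * (k / p ^ v) = k := by
    have := Nat.ordProj_mul_ordCompl_eq_self k p
    rwa [← heq] at this
  have hψ1 : (ψ : G → ℂ) 1 = (d : ℂ) := irr_one_eq_charDegree ψ
  have hdC : (d : ℂ) ≠ 0 := by exact_mod_cast hd0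
  have hpv : ((p : ℂ) ^ v) ≠ 0 := pow_ne_zero _ (by exact_mod_cast hp.ne_zero)
  have e1 : (d : ℂ) * centralChar (ψ : G → ℂ) z = (k : ℂ) * (ψ : G → ℂ) z := by
    rw [centralChar, hψ1, ← hk]; field_simp
  have e2 : (d : ℂ) = (p : ℂ) ^ v * ((d / p ^ v : ℕ) : ℂ) := by
    conv_lhs => rw [← hd']
    push_cast; ring
  have e3 : (k : ℂ) = (p : ℂ) ^ v * ((k / p ^ v : ℕ) : ℂ) := by
    conv_lhs => rw [← hk']
    push_cast; ring
  rw [e2, e3, mul_assoc, mul_assoc] at e1
  exact mul_left_cancel₀ hpv e1

omit [Fintype G] in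
theorem centralizer_inv (z : G) :
    Subgroup.centralizer ({z⁻¹} : Set G) = Subgroup.centralizer ({z} : Set G) := by
  ext u
  simp only [Subgroup.mem_centralizer_iff, Set.mem_singleton_iff, forall_eq]
  constructor
  · intro h
    calc z * u = z * (u * z⁻¹) * z := by group
      _ = z * (z⁻¹ * u) * z := by rw [h]
      _ = u * z := by group
  · intro h
    calc z⁻¹ * u = z⁻¹ * (u * z) * z⁻¹ := by group
      _ = z⁻¹ * (z * u) * z⁻¹ := by rw [h]
      _ = u * z⁻¹ := by group

theorem centralChar_conj (ψ : IrrCharacter G) (g w : G) :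
    centralChar (ψ : G → ℂ) (w * g * w⁻¹) = centralChar (ψ : G → ℂ) g := by
  classical
  rw [← omega_classInd, ← omega_classInd]
  congr 1
  funext y
  simp only [classInd]
  have : IsConj (w * g * w⁻¹) y ↔ IsConj g y := by
    constructor
    · intro h; exact (isConj_iff.mpr ⟨w, rfl⟩ : IsConj g (w * g * w⁻¹)).trans h
    · intro h; exact ((isConj_iff.mpr ⟨w, rfl⟩ : IsConj g (w * g * w⁻¹)).symm).trans h
  exact if_congr this rfl rfl

/-- Conjugates of defect classes are defect classes. -/
theorem isDefectClass_conj {B : Set (IrrCharacter G)} {g : G} (hg : IsDefectClass M B g)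
    (w : G) : IsDefectClass M B (w * g * w⁻¹) := by
  obtain ⟨h1, h2, h3⟩ := hg
  have hb : blockCoeff B (w * g * w⁻¹) = blockCoeff B g :=
    Helper77.blockCoeff_isClassFunction B g w
  refine ⟨by rw [hb]; exact h1, by rw [hb]; exact h2, fun χ hχ => ?_⟩
  rw [centralChar_conj]
  exact h3 χ hχ

/-- If `w⁻¹ D w` lies in a Sylow `p`-subgroup `P` of the centralizer of a defect class `g` and
has the same order, then `D` is a defect group. -/
theorem isDefectGroup_of_conj_le {p : ℕ} [Fact p.Prime] {B : Set (IrrCharacter G)} {g : G}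
    (hg : IsDefectClass M B g) (P : Sylow p (Subgroup.centralizer ({g} : Set G)))
    (D : Subgroup G) (w : G)
    (hle : ∀ u ∈ D, w⁻¹ * u * w ∈ (P : Subgroup (Subgroup.centralizer ({g} : Set G))).map
      (Subgroup.centralizer ({g} : Set G)).subtype)
    (hcard : Nat.card D = Nat.card P) : IsDefectGroup p M B D := by
  have hDle : D ≤ Subgroup.centralizer ({w * g * w⁻¹} : Set G) := by
    intro u hu
    obtain ⟨v, -, hv⟩ := Subgroup.mem_map.mp (hle u hu)
    have hv2 := v.2
    rw [Helper77.mem_centralizer_singleton] at hv2 ⊢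
    have hv' : (v : G) = w⁻¹ * u * w := hv
    rw [hv'] at hv2
    calc u * (w * g * w⁻¹) = w * (w⁻¹ * u * w * g) * w⁻¹ := by group
      _ = w * (g * (w⁻¹ * u * w)) * w⁻¹ := by rw [hv2]
      _ = w * g * w⁻¹ * u := by group
  have hcardC : Nat.card (Subgroup.centralizer ({w * g * w⁻¹} : Set G)) =
      Nat.card (Subgroup.centralizer ({g} : Set G)) := by
    symm
    refine Nat.card_eq_of_bijective
      (fun u : Subgroup.centralizer ({g} : Set G) =>
        (⟨w * u * w⁻¹, by
          have hu := u.2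
          rw [Helper77.mem_centralizer_singleton] at hu ⊢
          calc w * u * w⁻¹ * (w * g * w⁻¹) = w * (u * g) * w⁻¹ := by group
            _ = w * (g * u) * w⁻¹ := by rw [hu]
            _ = w * g * w⁻¹ * (w * u * w⁻¹) := by group⟩ :
          Subgroup.centralizer ({w * g * w⁻¹} : Set G))) ⟨?_, ?_⟩
    · intro u v huv
      have := congrArg Subtype.val huv
      simp only [mul_left_inj, mul_right_inj] at this
      exact Subtype.ext this
    · intro u'
      refine ⟨⟨w⁻¹ * u' * w, ?_⟩, ?_⟩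
      · have hu := u'.2
        rw [Helper77.mem_centralizer_singleton] at hu ⊢
        calc w⁻¹ * u' * w * g = w⁻¹ * (u' * (w * g * w⁻¹)) * w := by group
          _ = w⁻¹ * ((w * g * w⁻¹) * u') * w := by rw [hu]
          _ = g * (w⁻¹ * u' * w) := by group
      · apply Subtype.ext
        simp only
        group
  have hcard' : Nat.card (D.subgroupOf (Subgroup.centralizer ({w * g * w⁻¹} : Set G))) =
      p ^ (Nat.card (Subgroup.centralizer ({w * g * w⁻¹} : Set G))).factorization p := by
    rw [Nat.card_congr (Subgroup.subgroupOfEquivOfLe hDle).toEquiv, hcard, hcardC,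
      P.card_eq_multiplicity]
  refine ⟨w * g * w⁻¹, isDefectClass_conj hg w, Sylow.ofCard _ hcard', ?_⟩
  rw [Sylow.coe_ofCard, Subgroup.map_subgroupOf_eq_of_le hDle]

end

end Cfsg.Agent.Helper78
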