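import Mathlib
import Cfsg.Agent.Helper5.SLCard

set_option autoImplicit false

namespace Cfsg.Agent.Helper78

open Matrix

/-- The coefficients of `g ^ n = a_n g + b_n` for a `2 × 2` matrix of determinant one and
trace `t`. -/
def g3Seq {R : Type*} [CommRing R] (t : R) : ℕ → R × R
  | 0 => (0, 1)
  | n + 1 => (t * (g3Seq t n).1 + (g3Seq t n).2, -(g3Seq t n).1)

theorem g3Seq_map {R S : Type*} [CommRing R] [CommRing S] (φ : R →+* S) (t : R) (n : ℕ) :
    g3Seq (φ t) n = (φ (g3Seq t n).1, φ (g3Seq t n).2) := by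
  induction n with
  | zero => simp [g3Seq]
  | succ n ih => simp [g3Seq, ih]

theorem g3Seq_13 : ∀ s : ZMod 13,
    (g3Seq s 6).1 = 0 ∨ (g3Seq s 7).1 = 0 ∨ (g3Seq s 13).1 = 0 := by
  decide

theorem g3_sq_eq {R : Type*} [CommRing R] (g : Matrix (Fin 2) (Fin 2) R) (hdet : g.det = 1) :
    g * g = (g 0 0 + g 1 1) • g - 1 := by
  rw [Matrix.det_fin_two] at hdet
  ext i j
  fin_cases i <;> fin_cases j <;>
    simp [Matrix.mul_apply, Fin.sum_univ_two] <;>
    first | (linear_combination (-1 : R) * hdet) | ring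

theorem g3_pow_eq {R : Type*} [CommRing R] (g : Matrix (Fin 2) (Fin 2) R) (hdet : g.det = 1)
    (n : ℕ) :
    g ^ n = (g3Seq (g 0 0 + g 1 1) n).1 • g + (g3Seq (g 0 0 + g 1 1) n).2 • 1 := by
  induction n with
  | zero => simp [g3Seq]
  | succ n ih =>
    rw [pow_succ, ih, add_mul, Matrix.smul_mul, Matrix.smul_mul, g3_sq_eq g hdet, Matrix.one_mul]
    simp only [g3Seq]
    rw [smul_sub, smul_smul, add_smul, neg_smul, mul_comm]
    abel

theorem g3_pow_central {E : Type*} [Field E] (g : Matrix.SpecialLinearGroup (Fin 2) E) (n : ℕ)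
    (h : (g3Seq ((g : Matrix (Fin 2) (Fin 2) E) 0 0 + (g : Matrix (Fin 2) (Fin 2) E) 1 1) n).1
      = 0) :
    (QuotientGroup.mk g : Matrix.ProjectiveSpecialLinearGroup (Fin 2) E) ^ n = 1 := by
  rw [← QuotientGroup.mk_pow, QuotientGroup.eq_one_iff, Subgroup.mem_center_iff]
  intro k
  apply Subtype.ext
  have hp := g3_pow_eq (g : Matrix (Fin 2) (Fin 2) E) g.2 n
  rw [h, zero_smul, zero_add] at hp
  simp only [Matrix.SpecialLinearGroup.coe_mul, Matrix.SpecialLinearGroup.coe_pow]
  rw [hp]
  simp

/-- Piece P1 of CALL S2518: `PSL₂(13)` has order 1092, every element has order dividing 6, 7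
or 13, and there is an element of order 6. -/
theorem psl2_13_spec {E : Type*} [Field E] [Fintype E] (hE : Fintype.card E = 13) :
    Nat.card (Matrix.ProjectiveSpecialLinearGroup (Fin 2) E) = 1092 ∧
    (∀ y : Matrix.ProjectiveSpecialLinearGroup (Fin 2) E, y ^ 6 = 1 ∨ y ^ 7 = 1 ∨ y ^ 13 = 1) ∧
    (∃ y : Matrix.ProjectiveSpecialLinearGroup (Fin 2) E, orderOf y = 6) := by
  classical
  have h13 : (13 : E) = 0 := by
    have := Nat.cast_card_eq_zero E
    rw [hE] at this
    exact_mod_cast this
  have h2 : (2 : E) ≠ 0 := by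
    intro h
    have : (1 : E) = 0 := by linear_combination h13 - 6 * h
    exact one_ne_zero this
  have h3 : (3 : E) ≠ 0 := by
    intro h
    have : (1 : E) = 0 := by linear_combination h13 - 4 * h
    exact one_ne_zero this
  have h6 : (6 : E) ≠ 0 := by
    intro h
    have : (1 : E) = 0 := by linear_combination h13 - 2 * h
    exact one_ne_zero this
  refine ⟨?_, ?_, ?_⟩
  · have h := Cfsg.Agent.Helper5.card_PSL2_mul (F := E)
    rw [Cfsg.Agent.Helper5.card_center_SL2 h2, hE] at h
    omega
  · intro y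
    obtain ⟨g, rfl⟩ := QuotientGroup.mk_surjective y
    let φ : ZMod 13 ≃+* E := ZMod.ringEquivOfPrime E (by norm_num) hE
    set t : E := (g : Matrix (Fin 2) (Fin 2) E) 0 0 + (g : Matrix (Fin 2) (Fin 2) E) 1 1 with ht
    have hts : t = φ (φ.symm t) := (φ.apply_symm_apply t).symm
    have key : ∀ n, (g3Seq (φ.symm t) n).1 = 0 → (g3Seq t n).1 = 0 := by
      intro n hn
      rw [hts]
      have := g3Seq_map (φ : ZMod 13 →+* E) (φ.symm t) n
      simp only [RingEquiv.coe_toRingHom] at this
      rw [this, hn, map_zero]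
    rcases g3Seq_13 (φ.symm t) with h | h | h
    · left; exact g3_pow_central g 6 (key 6 h)
    · right; left; exact g3_pow_central g 7 (key 7 h)
    · right; right; exact g3_pow_central g 13 (key 13 h)
  · -- the image of diag(2, 7)
    have hdet : (!![(2 : E), 0; 0, 7] : Matrix (Fin 2) (Fin 2) E).det = 1 := by
      rw [Matrix.det_fin_two_of]
      linear_combination h13
    let g : Matrix.SpecialLinearGroup (Fin 2) E := ⟨!![(2 : E), 0; 0, 7], hdet⟩
    have hpow : ∀ n : ℕ, ((g ^ n : Matrix.SpecialLinearGroup (Fin 2) E) : Matrix (Fin 2) (Fin 2) E)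
        = !![(2 : E) ^ n, 0; 0, 7 ^ n] := by
      intro n
      induction n with
      | zero =>
        simp only [pow_zero, Matrix.SpecialLinearGroup.coe_one]
        ext i j; fin_cases i <;> fin_cases j <;> simp
      | succ n ih =>
        rw [pow_succ, Matrix.SpecialLinearGroup.coe_mul, ih]
        ext i j
        fin_cases i <;> fin_cases j <;> simp [g, Matrix.mul_apply, Fin.sum_univ_two, pow_succ]
    have hnc : ∀ n : ℕ, (2 : E) ^ n ≠ 7 ^ n →
        (QuotientGroup.mk g : Matrix.ProjectiveSpecialLinearGroup (Fin 2) E) ^ n ≠ 1 := by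
      intro n hn hone
      rw [← QuotientGroup.mk_pow, QuotientGroup.eq_one_iff,
        Matrix.SpecialLinearGroup.mem_center_iff] at hone
      obtain ⟨r, -, hr⟩ := hone
      have e0 := congrFun (congrFun hr 0) 0
      have e1 := congrFun (congrFun hr 1) 1
      rw [hpow n] at e0 e1
      simp at e0 e1
      exact hn (e0.symm.trans e1)
    refine ⟨QuotientGroup.mk g, ?_⟩
    apply orderOf_eq_of_pow_and_pow_div_prime (by norm_num)
    · apply g3_pow_central g 6
      show (g3Seq ((2 : E) + 7) 6).1 = 0
      simp only [g3Seq]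
      linear_combination (4320 : E) * h13
    · intro p hp hpd
      have hp6 : p = 2 ∨ p = 3 := by
        have : p ∣ 2 * 3 := by simpa using hpd
        rcases (Nat.Prime.dvd_mul hp).mp this with h | h
        · left; exact (Nat.prime_dvd_prime_iff_eq hp Nat.prime_two).mp h
        · right; exact (Nat.prime_dvd_prime_iff_eq hp Nat.prime_three).mp h
      rcases hp6 with rfl | rfl
      · -- exponent 3
        apply hnc 3
        intro h
        have : (3 : E) = 0 := by linear_combination h + 26 * h13
        exact h3 this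
      · -- exponent 2
        apply hnc 2
        intro h
        have : (6 : E) = 0 := by linear_combination (-1 : E) * h - 3 * h13
        exact h6 this

end Cfsg.Agent.Helper78
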