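-- helper78 library: piece W1A of CALL S4627 (helper97).
import Mathlib
import Cfsg.Agent.Helper97.GSylDefs
import Cfsg.Agent.Helper97.GSylWN

set_option autoImplicit false

namespace Cfsg.Agent.Helper78.GSylW1A

open Matrix Cfsg.Agent.Helper97.GSyl
open scoped commutatorElement

variable {F : Type*} [Field F] {m : ℕ}

/-- The elements of `K` with square in `⁅K, K⁆` form a subgroup. -/
def sqSub {G : Type*} [Group G] (K : Subgroup G) : Subgroup G where
  carrier := {x | x ∈ K ∧ x ^ 2 ∈ ⁅K, K⁆}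
  one_mem' := ⟨K.one_mem, by rw [one_pow]; exact one_mem _⟩
  mul_mem' := by
    rintro a b ⟨ha, ha2⟩ ⟨hb, hb2⟩
    refine ⟨K.mul_mem ha hb, ?_⟩
    have e : (a * b) ^ 2 = a ^ 2 * ⁅a⁻¹, b⁆ * b ^ 2 := by
      rw [commutatorElement_def, pow_two, pow_two, pow_two]; group
    rw [e]
    exact mul_mem (mul_mem ha2 (Subgroup.commutator_mem_commutator (inv_mem ha) hb)) hb2
  inv_mem' := by
    rintro a ⟨ha, ha2⟩
    exact ⟨K.inv_mem ha, by rw [inv_pow]; exact inv_mem ha2⟩

theorem mem_sqSub {G : Type*} [Group G] (K : Subgroup G) (x : G) :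
    x ∈ sqSub K ↔ x ∈ K ∧ x ^ 2 ∈ ⁅K, K⁆ := Iff.rfl

theorem mem_ker_det_iff {n : Type*} [Fintype n] [DecidableEq n] (x : GL n F) :
    x ∈ (Matrix.GeneralLinearGroup.det : GL n F →* Fˣ).ker ↔ (x : Matrix n n F).det = 1 := by
  rw [MonoidHom.mem_ker]
  constructor
  · intro h2
    have := congrArg Units.val h2
    simpa using this
  · intro h2
    apply Units.ext
    simpa using h2

theorem gPhi_mem_gW (S : Subgroup (GL (Fin 2) F)) (T : Subgroup (Equiv.Perm (Fin m)))
    (g : Fin m → GL (Fin 2) F) (hg : ∀ k, g k ∈ S) : gPhi F m g ∈ gW S T :=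
  Subgroup.mem_sup_left (Subgroup.mem_map_of_mem _ (by
    rw [Subgroup.mem_pi]; intro k _; exact hg k))

theorem gPsi_mem_gW (S : Subgroup (GL (Fin 2) F)) (T : Subgroup (Equiv.Perm (Fin m)))
    (σ : Equiv.Perm (Fin m)) (hσ : σ ∈ T) : gPsi F m σ ∈ gW S T :=
  Subgroup.mem_sup_right (Subgroup.mem_map_of_mem _ hσ)

theorem gPhi_mem_gWk (S : Subgroup (GL (Fin 2) F)) (T : Subgroup (Equiv.Perm (Fin m)))
    (g : Fin m → GL (Fin 2) F) (hg : ∀ k, g k ∈ S)
    (hd : ∏ k, ((g k : GL (Fin 2) F) : Matrix (Fin 2) (Fin 2) F).det = 1) :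
    gPhi F m g ∈ gWk S T := by
  unfold gWk
  refine Subgroup.mem_inf.mpr ⟨gPhi_mem_gW S T g hg, ?_⟩
  rw [mem_ker_det_iff, det_gPhi, hd]

theorem gPsi_mem_gWk (S : Subgroup (GL (Fin 2) F)) (T : Subgroup (Equiv.Perm (Fin m)))
    (σ : Equiv.Perm (Fin m)) (hσ : σ ∈ T) : gPsi F m σ ∈ gWk S T := by
  unfold gWk
  refine Subgroup.mem_inf.mpr ⟨gPsi_mem_gW S T σ hσ, ?_⟩
  rw [mem_ker_det_iff, det_gPsi]

/-- generators of type (a): block permutations -/
theorem gPsi_mem_sqSub (S : Subgroup (GL (Fin 2) F)) (T : Subgroup (Equiv.Perm (Fin m)))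
    (hT : ∀ t ∈ T, t ^ 2 ∈ ⁅T, T⁆) (t : Equiv.Perm (Fin m)) (ht : t ∈ T) :
    gPsi F m t ∈ sqSub (gWk S T) := by
  refine ⟨gPsi_mem_gWk S T t ht, ?_⟩
  have hle : T.map (gPsi F m) ≤ gWk S T := by
    rintro _ ⟨σ, hσ, rfl⟩
    exact gPsi_mem_gWk S T σ hσ
  rw [← map_pow]
  have h1 : gPsi F m (t ^ 2) ∈ (⁅T, T⁆).map (gPsi F m) := Subgroup.mem_map_of_mem _ (hT t ht)
  rw [Subgroup.map_commutator] at h1
  exact Subgroup.commutator_mono hle hle h1

/-- generators of type (b): block diagonal with blocks of determinant one -/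
theorem gPhi_mem_sqSub (S : Subgroup (GL (Fin 2) F)) (T : Subgroup (Equiv.Perm (Fin m)))
    (hQ : ∀ s ∈ gQ S, s ^ 2 ∈ ⁅gQ S, gQ S⁆) (h : Fin m → GL (Fin 2) F)
    (hh : ∀ k, h k ∈ gQ S) : gPhi F m h ∈ sqSub (gWk S T) := by
  have hle : (Subgroup.pi Set.univ (fun _ : Fin m => gQ S)).map (gPhi F m) ≤ gWk S T := by
    rintro _ ⟨g, hg, rfl⟩
    rw [SetLike.mem_coe, Subgroup.mem_pi] at hg
    apply gPhi_mem_gWk
    · intro k; exact ((mem_gQ S _).mp (hg k (Set.mem_univ k))).1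
    · apply Finset.prod_eq_one
      intro k _
      exact ((mem_gQ S _).mp (hg k (Set.mem_univ k))).2
  have hmem : h ∈ Subgroup.pi Set.univ (fun _ : Fin m => gQ S) := by
    rw [Subgroup.mem_pi]; intro k _; exact hh k
  refine ⟨hle (Subgroup.mem_map_of_mem _ hmem), ?_⟩
  rw [← map_pow]
  have h1 : h ^ 2 ∈ ⁅Subgroup.pi Set.univ (fun _ : Fin m => gQ S),
      Subgroup.pi Set.univ (fun _ : Fin m => gQ S)⁆ := by
    rw [Subgroup.commutator_pi_pi_of_finite, Subgroup.mem_pi]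
    intro k _
    exact hQ (h k) (hh k)
  have h2 := Subgroup.mem_map_of_mem (gPhi F m) h1
  rw [Subgroup.map_commutator] at h2
  exact Subgroup.commutator_mono hle hle h2

theorem prod_det_mulSingle (j : Fin m) (s : GL (Fin 2) F) :
    ∏ l, (((Pi.mulSingle j s : Fin m → GL (Fin 2) F) l : GL (Fin 2) F) :
      Matrix (Fin 2) (Fin 2) F).det = (s : Matrix (Fin 2) (Fin 2) F).det := by
  rw [Finset.prod_eq_single j]
  · rw [Pi.mulSingle_eq_same]
  · intro l _ hl
    rw [Pi.mulSingle_eq_of_ne hl]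
    simp
  · intro h; exact absurd (Finset.mem_univ j) h

theorem prod_det_mul (g h : Fin m → GL (Fin 2) F) :
    ∏ l, (((g * h) l : GL (Fin 2) F) : Matrix (Fin 2) (Fin 2) F).det =
      (∏ l, ((g l : GL (Fin 2) F) : Matrix (Fin 2) (Fin 2) F).det) *
        ∏ l, ((h l : GL (Fin 2) F) : Matrix (Fin 2) (Fin 2) F).det := by
  rw [← Finset.prod_mul_distrib]
  apply Finset.prod_congr rfl
  intro l _
  rw [Pi.mul_apply, Units.val_mul, Matrix.det_mul]

/-- the pair function: `s` in positions `j` and `k` -/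
def pairFn (j k : Fin m) (s : GL (Fin 2) F) : Fin m → GL (Fin 2) F :=
  Pi.mulSingle j s * Pi.mulSingle k s

theorem pair_apply (j k : Fin m) (hjk : j ≠ k) (s : GL (Fin 2) F) (l : Fin m) :
    pairFn j k s l = if l = j ∨ l = k then s else 1 := by
  unfold pairFn
  rw [Pi.mul_apply]
  by_cases hlj : l = j
  · subst hlj
    rw [Pi.mulSingle_eq_same, Pi.mulSingle_eq_of_ne hjk, mul_one, if_pos (Or.inl rfl)]
  · by_cases hlk : l = k
    · subst hlk
      rw [Pi.mulSingle_eq_of_ne hlj, Pi.mulSingle_eq_same, one_mul, if_pos (Or.inr rfl)]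
    · rw [Pi.mulSingle_eq_of_ne hlj, Pi.mulSingle_eq_of_ne hlk, one_mul,
        if_neg (by rintro (h | h); exact hlj h; exact hlk h)]

/-- generators of type (c): pairs of involutions of determinant `-1` -/
theorem pair_mem_sqSub (S : Subgroup (GL (Fin 2) F)) (T : Subgroup (Equiv.Perm (Fin m)))
    (s₀ : GL (Fin 2) F) (hs₀ : s₀ ∈ S) (hd : (s₀ : Matrix (Fin 2) (Fin 2) F).det = -1)
    (hsq : s₀ ^ 2 = 1) (j k : Fin m) (hjk : j ≠ k) :
    gPhi F m (pairFn j k s₀) ∈ sqSub (gWk S T) := by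
  refine ⟨gPhi_mem_gWk S T _ ?_ ?_, ?_⟩
  · intro l
    rw [pair_apply j k hjk]
    split_ifs
    · exact hs₀
    · exact S.one_mem
  · unfold pairFn
    rw [prod_det_mul, prod_det_mulSingle, prod_det_mulSingle, hd]
    ring
  · rw [← map_pow]
    have h1 : (pairFn j k s₀) ^ 2 = 1 := by
      funext l
      rw [Pi.pow_apply, pair_apply j k hjk, Pi.one_apply]
      split_ifs
      · exact hsq
      · exact one_pow 2
    rw [h1, map_one]
    exact one_mem _

open Classical in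
/-- block diagonal elements of determinant one are products of generators -/
theorem gPhi_mem_sqSub_of_det (S : Subgroup (GL (Fin 2) F)) (T : Subgroup (Equiv.Perm (Fin m)))
    (hdet : ∀ s ∈ S, (s : Matrix (Fin 2) (Fin 2) F).det = 1 ∨
      (s : Matrix (Fin 2) (Fin 2) F).det = -1)
    (s₀ : GL (Fin 2) F) (hs₀ : s₀ ∈ S) (hd : (s₀ : Matrix (Fin 2) (Fin 2) F).det = -1)
    (hsq : s₀ ^ 2 = 1)
    (hQ : ∀ s ∈ gQ S, s ^ 2 ∈ ⁅gQ S, gQ S⁆) (n : ℕ) :
    ∀ (g : Fin m → GL (Fin 2) F), (∀ k, g k ∈ S) →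
      ∏ k, ((g k : GL (Fin 2) F) : Matrix (Fin 2) (Fin 2) F).det = 1 →
      (Finset.univ.filter
        (fun k => ((g k : GL (Fin 2) F) : Matrix (Fin 2) (Fin 2) F).det ≠ 1)).card = n →
      gPhi F m g ∈ sqSub (gWk S T) := by
  induction n using Nat.strong_induction_on with
  | _ n ih =>
    intro g hg hprod hn
    by_cases hJ : (Finset.univ.filter
        (fun k => ((g k : GL (Fin 2) F) : Matrix (Fin 2) (Fin 2) F).det ≠ 1)) = ∅
    · apply gPhi_mem_sqSub S T hQ
      intro k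
      rw [mem_gQ]
      refine ⟨hg k, ?_⟩
      by_contra hk
      have hmem : k ∈ Finset.univ.filter
          (fun k => ((g k : GL (Fin 2) F) : Matrix (Fin 2) (Fin 2) F).det ≠ 1) :=
        Finset.mem_filter.mpr ⟨Finset.mem_univ k, hk⟩
      rw [hJ] at hmem
      exact absurd hmem (Finset.notMem_empty k)
    · obtain ⟨j, hj⟩ := Finset.nonempty_iff_ne_empty.mpr hJ
      have hj1 : ((g j : GL (Fin 2) F) : Matrix (Fin 2) (Fin 2) F).det ≠ 1 :=
        (Finset.mem_filter.mp hj).2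
      have hjm : ((g j : GL (Fin 2) F) : Matrix (Fin 2) (Fin 2) F).det = -1 :=
        (hdet _ (hg j)).resolve_left hj1
      have hex : ∃ k, k ≠ j ∧ ((g k : GL (Fin 2) F) : Matrix (Fin 2) (Fin 2) F).det ≠ 1 := by
        by_contra hno0
        have hno : ∀ k, k ≠ j → ((g k : GL (Fin 2) F) : Matrix (Fin 2) (Fin 2) F).det = 1 :=
          fun k hk => by_contra (fun h => hno0 ⟨k, hk, h⟩)
        have h1 : ∏ k, ((g k : GL (Fin 2) F) : Matrix (Fin 2) (Fin 2) F).det
            = ((g j : GL (Fin 2) F) : Matrix (Fin 2) (Fin 2) F).det := by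
          apply Finset.prod_eq_single j
          · intro k _ hk; exact hno k hk
          · intro h; exact absurd (Finset.mem_univ j) h
        rw [hprod] at h1
        exact hj1 h1.symm
      obtain ⟨k, hkj, hk1⟩ := hex
      have hkm : ((g k : GL (Fin 2) F) : Matrix (Fin 2) (Fin 2) F).det = -1 :=
        (hdet _ (hg k)).resolve_left hk1
      have hjk : j ≠ k := Ne.symm hkj
      have hp := pair_mem_sqSub S T s₀ hs₀ hd hsq j k hjk
      have hval : ∀ l, (((g * pairFn j k s₀) l : GL (Fin 2) F) :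
          Matrix (Fin 2) (Fin 2) F).det =
          ((g l : GL (Fin 2) F) : Matrix (Fin 2) (Fin 2) F).det *
            (if l = j ∨ l = k then -1 else 1) := by
        intro l
        rw [Pi.mul_apply, pair_apply j k hjk, Units.val_mul, Matrix.det_mul]
        split_ifs
        · rw [hd]
        · simp
      have hg' : ∀ l, (g * pairFn j k s₀) l ∈ S := by
        intro l
        rw [Pi.mul_apply, pair_apply j k hjk]
        apply S.mul_mem (hg l)
        split_ifs
        · exact hs₀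
        · exact S.one_mem
      have hprod' : ∏ l, (((g * pairFn j k s₀) l : GL (Fin 2) F) :
          Matrix (Fin 2) (Fin 2) F).det = 1 := by
        rw [prod_det_mul, hprod]
        unfold pairFn
        rw [prod_det_mul, prod_det_mulSingle, prod_det_mulSingle, hd]
        ring
      have hsub : Finset.univ.filter (fun l =>
          (((g * pairFn j k s₀) l : GL (Fin 2) F) :
            Matrix (Fin 2) (Fin 2) F).det ≠ 1) ⊂
          Finset.univ.filter
            (fun k => ((g k : GL (Fin 2) F) : Matrix (Fin 2) (Fin 2) F).det ≠ 1) := by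
        have hss : Finset.univ.filter (fun l =>
            (((g * pairFn j k s₀) l : GL (Fin 2) F) :
              Matrix (Fin 2) (Fin 2) F).det ≠ 1) ⊆
            Finset.univ.filter
              (fun k => ((g k : GL (Fin 2) F) : Matrix (Fin 2) (Fin 2) F).det ≠ 1) := by
          intro l hl
          rw [Finset.mem_filter] at hl ⊢
          refine ⟨Finset.mem_univ l, ?_⟩
          intro h1
          apply hl.2
          rw [hval l, h1]
          by_cases hl' : l = j ∨ l = k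
          · exfalso
            rcases hl' with rfl | rfl
            · exact hj1 h1
            · exact hk1 h1
          · rw [if_neg hl', mul_one]
        rw [Finset.ssubset_iff_of_subset hss]
        refine ⟨j, hj, ?_⟩
        intro hj'
        apply (Finset.mem_filter.mp hj').2
        rw [hval j, hjm, if_pos (Or.inl rfl)]
        ring
      have hlt := Finset.card_lt_card hsub
      rw [hn] at hlt
      have hih := ih _ hlt (g * pairFn j k s₀) hg' hprod' rfl
      have e : gPhi F m g = gPhi F m (g * pairFn j k s₀) *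
          (gPhi F m (pairFn j k s₀))⁻¹ := by
        rw [map_mul]; group
      rw [e]
      exact (sqSub _).mul_mem hih ((sqSub _).inv_mem hp)

theorem gWk_sq_inv (S : Subgroup (GL (Fin 2) F)) (T : Subgroup (Equiv.Perm (Fin m)))
    (hdet : ∀ s ∈ S, (s : Matrix (Fin 2) (Fin 2) F).det = 1 ∨
      (s : Matrix (Fin 2) (Fin 2) F).det = -1)
    (hinv : ∃ s₀ ∈ S, (s₀ : Matrix (Fin 2) (Fin 2) F).det = -1 ∧ s₀ ^ 2 = 1)
    (hQ : ∀ s ∈ gQ S, s ^ 2 ∈ ⁅gQ S, gQ S⁆)
    (hT : ∀ t ∈ T, t ^ 2 ∈ ⁅T, T⁆) :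
    ∀ x ∈ gWk S T, x ^ 2 ∈ ⁅gWk S T, gWk S T⁆ := by
  classical
  intro x hx
  obtain ⟨s₀, hs₀, hd, hsq⟩ := hinv
  have hx' := hx
  unfold gWk at hx'
  obtain ⟨hxW, hxd⟩ := Subgroup.mem_inf.mp hx'
  rw [mem_ker_det_iff] at hxd
  obtain ⟨g, hg, σ, hσ, rfl⟩ := (Cfsg.Agent.Helper97.GSylWN.gW_mem_iff S T x).mp hxW
  rw [Units.val_mul, Matrix.det_mul, det_gPsi, mul_one, det_gPhi] at hxd
  have h1 : gPhi F m g ∈ sqSub (gWk S T) :=
    gPhi_mem_sqSub_of_det S T hdet s₀ hs₀ hd hsq hQ _ g hg hxd rfl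
  have h2 : gPsi F m σ ∈ sqSub (gWk S T) := gPsi_mem_sqSub S T hT σ hσ
  exact ((sqSub (gWk S T)).mul_mem h1 h2).2

end Cfsg.Agent.Helper78.GSylW1A
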