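-- helper78 library: piece A4680 of CALL S0983 (helper82).
import Mathlib
import Cfsg.Agent.Helper9.OrdTools
import Cfsg.Agent.Helper9.OrdTools2
import Cfsg.Agent.Helper8.SylFix

set_option autoImplicit false

namespace Cfsg.Agent.Helper78

open Subgroup

theorem o4680_arith_n13 (n : ℕ) (hd : n ∣ 360) (hm : n % 13 = 1) (hn : n ≠ 1) : n = 40 := by
  have hle : n ≤ 360 := Nat.le_of_dvd (by norm_num) hd
  obtain ⟨t, rfl⟩ : ∃ t, n = 13 * t + 1 := ⟨n / 13, by omega⟩
  have ht : t ≤ 27 := by omega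
  interval_cases t <;> omega

theorem o4680_arith_cent (e c : ℕ) (he : e ∣ 12) (he1 : 1 < e) (h : 117 = e * c) (hc : 13 ∣ c) :
    c = 39 := by
  obtain ⟨m, rfl⟩ := hc
  have hle : e ≤ 12 := Nat.le_of_dvd (by norm_num) he
  interval_cases e <;> omega

theorem centralizer_le_normalizer_sylow {G : Type*} [Group G] (H : Subgroup G) :
    centralizer (H : Set G) ≤ normalizer (H : Set G) := by
  intro c hc
  rw [Subgroup.mem_centralizer_iff] at hc
  rw [Subgroup.mem_normalizer_iff]
  intro x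
  constructor
  · intro hx
    have h1 : c * x * c⁻¹ = x := by
      rw [← hc x hx, mul_assoc, mul_inv_cancel, mul_one]
    rw [h1]
    exact hx
  · intro hx
    have h1 := hc _ hx
    have h2 : x = c * x * c⁻¹ := by
      have h3 : c⁻¹ * (c * x * c⁻¹ * c) = c⁻¹ * (c * (c * x * c⁻¹)) := by rw [h1]
      have h4 : c⁻¹ * (c * x * c⁻¹ * c) = x := by group
      have h5 : c⁻¹ * (c * (c * x * c⁻¹)) = c * x * c⁻¹ := by group
      rw [h4, h5] at h3
      exact h3
    rw [h2]
    exact hx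

variable {G : Type*} [Group G] [Finite G] [IsSimpleGroup G]

theorem o4680_a (h : Nat.card G = 4680) (P : Sylow 13 G) :
    Nat.card (Sylow 13 G) = 40 ∧
    Nat.card (normalizer ((P : Subgroup G) : Set G)) = 117 ∧
    Nat.card (centralizer ((P : Subgroup G) : Set G)) = 39 ∧
    (∀ c ∈ centralizer ((P : Subgroup G) : Set G), c ≠ 1 →
      ∀ Q : Sylow 13 G, c • Q = Q → Q = P) := by
  have : Fact (Nat.Prime 13) := ⟨by norm_num⟩
  have : Fact (Nat.Prime 3) := ⟨by norm_num⟩
  have hP13 : ∀ Q : Sylow 13 G, Nat.card (Q : Subgroup G) = 13 := fun Q => by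
    have h1 := Cfsg.Agent.Helper9.OrdTools.sylow_card (p := 13) 1 360 (by rw [h]; norm_num) (by norm_num) Q
    simpa using h1
  obtain ⟨hdvd, hmod, hne, hmul⟩ := Cfsg.Agent.Helper9.OrdTools.sylow_num P
    (by rw [hP13]; norm_num) (by rw [hP13, h]; norm_num)
  have hidx : (P : Subgroup G).index = 360 := by
    have h1 := (P : Subgroup G).card_mul_index
    rw [hP13, h] at h1
    omega
  rw [hidx] at hdvd
  have hn : Nat.card (Sylow 13 G) = 40 := o4680_arith_n13 _ hdvd hmod hne
  have hN : Nat.card (normalizer ((P : Subgroup G) : Set G)) = 117 := by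
    rw [hn, h] at hmul
    omega
  obtain ⟨e, he, he1, heq, h13⟩ := Cfsg.Agent.Helper9.OrdTools.normalizer_centralizer_prime P
    (hP13 P) (by rw [h]; norm_num)
  rw [hN] at heq
  have hC : Nat.card (centralizer ((P : Subgroup G) : Set G)) = 39 :=
    o4680_arith_cent e _ he he1 heq h13
  refine ⟨hn, hN, hC, ?_⟩
  intro c hc hc1 Q hcQ
  have hcNP : c ∈ normalizer ((P : Subgroup G) : Set G) := centralizer_le_normalizer_sylow _ hc
  have hcNQ : c ∈ normalizer ((Q : Subgroup G) : Set G) := Sylow.smul_eq_iff_mem_normalizer.mp hcQ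
  have hc39 : c ^ 39 = 1 := by
    have h1 : orderOf (⟨c, hc⟩ : centralizer ((P : Subgroup G) : Set G)) ∣ 39 := by
      rw [← hC]; exact orderOf_dvd_natCard _
    rw [Subgroup.orderOf_mk] at h1
    exact orderOf_dvd_iff_pow_eq_one.mp h1
  by_cases h3 : c ^ 3 = 1
  · -- `c` has order three: count fixed points
    have hord : orderOf c = 3 := orderOf_eq_prime h3 hc1
    have h1 := Cfsg.Agent.Helper8.SylFix.card_fixedBy_modEq_one P c
      (Subgroup.mem_centralizer_iff.mp hc)
    have h2 := Cfsg.Agent.Helper8.SylFix.card_fixedBy_modEq (p := 13) (q := 3) (k := 1) c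
      (by rw [hord, pow_one])
    have h4 := Cfsg.Agent.Helper8.SylFix.card_fixedBy_lt (p := 13) (by rw [hn]; norm_num) c hc1
    rw [hn] at h2 h4
    have hf : Nat.card (MulAction.fixedBy (Sylow 13 G) c) = 1 := by
      unfold Nat.ModEq at h1 h2
      omega
    have hsub : Subsingleton ↥(MulAction.fixedBy (Sylow 13 G) c) :=
      (Nat.card_eq_one_iff_unique.mp hf).1
    have hPfix : P ∈ MulAction.fixedBy (Sylow 13 G) c :=
      MulAction.mem_fixedBy.mpr (Sylow.smul_eq_iff_mem_normalizer.mpr hcNP)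
    have hQfix : Q ∈ MulAction.fixedBy (Sylow 13 G) c := MulAction.mem_fixedBy.mpr hcQ
    exact Subtype.ext_iff.mp (Subsingleton.elim (⟨Q, hQfix⟩ :
      ↥(MulAction.fixedBy (Sylow 13 G) c)) ⟨P, hPfix⟩)
  · -- `c ^ 3` has order thirteen
    have hord : orderOf (c ^ 3) = 13 := by
      apply orderOf_eq_prime _ h3
      rw [← pow_mul]
      exact hc39
    have hpg : IsPGroup 13 (zpowers (c ^ 3)) :=
      IsPGroup.of_card (n := 1) (by rw [Nat.card_zpowers, hord, pow_one])
    have hdP : c ^ 3 ∈ (P : Subgroup G) :=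
      Cfsg.Agent.Helper9.OrdTools.mem_sylow_of_mem_normalizer P hpg
        ((Subgroup.zpowers_le).mpr (Subgroup.pow_mem _ hcNP 3)) (Subgroup.mem_zpowers _)
    have hdQ : c ^ 3 ∈ (Q : Subgroup G) :=
      Cfsg.Agent.Helper9.OrdTools.mem_sylow_of_mem_normalizer Q hpg
        ((Subgroup.zpowers_le).mpr (Subgroup.pow_mem _ hcNQ 3)) (Subgroup.mem_zpowers _)
    have e1 := Cfsg.Agent.Helper9.OrdTools.zpowers_eq_sylow P (hP13 P) hdP h3
    have e2 := Cfsg.Agent.Helper9.OrdTools.zpowers_eq_sylow Q (hP13 Q) hdQ h3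
    exact Sylow.ext (e2.symm.trans e1)

end Cfsg.Agent.Helper78
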