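-- helper78 library: piece C4680 of CALL S0983 (helper82).
import Mathlib
import Cfsg.Agent.Helper9.OrdTools
import Cfsg.Agent.Helper9.OrdTools2
import Cfsg.Agent.Helper8.SylFix

set_option autoImplicit false
set_option linter.unusedVariables false
set_option linter.unusedSectionVars false

namespace Cfsg.Agent.Helper78

open Subgroup

theorem o4680_arith_d (n : ℕ) (hd : n ∣ 39) (h13 : ¬ 13 ∣ n) : n ≤ 3 := by
  have hle : n ≤ 39 := Nat.le_of_dvd (by norm_num) hd
  interval_cases n <;> omega

theorem o4680_conj_mem_centralizer {G : Type*} [Group G] (H : Subgroup G) {n c : G}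
    (hn : n ∈ normalizer (H : Set G)) (hc : c ∈ centralizer (H : Set G)) :
    n * c * n⁻¹ ∈ centralizer (H : Set G) := by
  rw [Subgroup.mem_centralizer_iff] at hc ⊢
  intro x hx
  have hx' : n⁻¹ * x * n ∈ H := by
    apply (Subgroup.mem_normalizer_iff.mp hn (n⁻¹ * x * n)).mpr
    have h1 : n * (n⁻¹ * x * n) * n⁻¹ = x := by group
    rw [h1]
    exact hx
  have h1 := hc (n⁻¹ * x * n) hx'
  calc x * (n * c * n⁻¹) = n * ((n⁻¹ * x * n) * c) * n⁻¹ := by group
    _ = n * (c * (n⁻¹ * x * n)) * n⁻¹ := by rw [h1]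
    _ = n * c * n⁻¹ * x := by group

variable {G : Type*} [Group G] [Finite G] [IsSimpleGroup G]

theorem o4680_c (h : Nat.card G = 4680)
    (hA : ∀ P : Sylow 13 G, Nat.card (Sylow 13 G) = 40 ∧
      Nat.card (normalizer ((P : Subgroup G) : Set G)) = 117 ∧
      Nat.card (centralizer ((P : Subgroup G) : Set G)) = 39 ∧
      (∀ c ∈ centralizer ((P : Subgroup G) : Set G), c ≠ 1 →
        ∀ Q : Sylow 13 G, c • Q = Q → Q = P))
    (x y : G) (hx : orderOf x = 5) (hy : orderOf y = 3) (hxy : x * y = y * x) : False := by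
  classical
  have : Fact (Nat.Prime 13) := ⟨by norm_num⟩
  have : Fact (Nat.Prime 3) := ⟨by norm_num⟩
  have : Fact (Nat.Prime 5) := ⟨by norm_num⟩
  have : Fintype (Sylow 13 G) := Fintype.ofFinite _
  have : Fintype ↥(MulAction.fixedBy (Sylow 13 G) y) := Fintype.ofFinite _
  obtain ⟨P₀⟩ : Nonempty (Sylow 13 G) := inferInstance
  have hn : Nat.card (Sylow 13 G) = 40 := (hA P₀).1
  have hP13 : ∀ Q : Sylow 13 G, Nat.card (Q : Subgroup G) = 13 := fun Q => by
    have h1 := Cfsg.Agent.Helper9.OrdTools.sylow_card (p := 13) 1 360 (by rw [h]; norm_num)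
      (by norm_num) Q
    simpa using h1
  -- (1) `5` divides the number of fixed points of `y`
  let S₀ : SubMulAction (↥(zpowers x)) (Sylow 13 G) :=
    { carrier := MulAction.fixedBy (Sylow 13 G) y
      smul_mem' := by
        intro c Q hQ
        rw [MulAction.mem_fixedBy] at hQ
        change y • ((c : G) • Q) = (c : G) • Q
        have hc : (c : G) * y = y * (c : G) := by
          obtain ⟨k, hk⟩ := Subgroup.mem_zpowers_iff.mp c.2
          rw [← hk]
          exact ((show Commute x y from hxy).zpow_left k).eq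
        rw [← mul_smul, ← hc, mul_smul, hQ] }
  have hz : IsPGroup 5 (zpowers x) :=
    IsPGroup.of_card (n := 1) (by rw [Nat.card_zpowers, hx, pow_one])
  have h5 := hz.card_modEq_card_fixedPoints (↥S₀)
  have hempty : Nat.card (MulAction.fixedPoints (↥(zpowers x)) (↥S₀)) = 0 := by
    rw [Nat.card_eq_zero]
    left
    constructor
    rintro ⟨a, ha⟩
    have h1 := ha ⟨x, Subgroup.mem_zpowers x⟩
    have h2 : x • (a : Sylow 13 G) = (a : Sylow 13 G) := congrArg Subtype.val h1
    have h3 : x ∈ normalizer ((((a : Sylow 13 G)) : Subgroup G) : Set G) :=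
      Sylow.smul_eq_iff_mem_normalizer.mp h2
    have h4 : orderOf (⟨x, h3⟩ : normalizer ((((a : Sylow 13 G)) : Subgroup G) : Set G)) ∣ 117 := by
      rw [← (hA (a : Sylow 13 G)).2.1]
      exact orderOf_dvd_natCard _
    rw [Subgroup.orderOf_mk, hx] at h4
    omega
  have hF5 : 5 ∣ Nat.card (MulAction.fixedBy (Sylow 13 G) y) := by
    rw [hempty] at h5
    exact (Nat.modEq_zero_iff_dvd.mp h5)
  have hF3 := Cfsg.Agent.Helper8.SylFix.card_fixedBy_modEq (p := 13) (q := 3) (k := 1) y
    (by rw [hy, pow_one])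
  have hF10 : 10 ≤ Nat.card (MulAction.fixedBy (Sylow 13 G) y) := by
    rw [hn] at hF3
    unfold Nat.ModEq at hF3
    obtain ⟨k, hk⟩ := hF5
    omega
  have hsubs : (∀ Q : Sylow 13 G, y • Q = Q → Q = P₀) → False := by
    intro hall
    have hss : Subsingleton ↥(MulAction.fixedBy (Sylow 13 G) y) :=
      ⟨fun a b => Subtype.ext ((hall a (MulAction.mem_fixedBy.mp a.2)).trans
        (hall b (MulAction.mem_fixedBy.mp b.2)).symm)⟩
    have := Finite.card_le_one_iff_subsingleton.mpr hss
    omega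
  -- (3) a fixed point `P`
  obtain ⟨⟨P, hPmem⟩⟩ : Nonempty ↥(MulAction.fixedBy (Sylow 13 G) y) :=
    (Nat.card_pos_iff.mp (by omega)).1
  have hyP : y • P = P := MulAction.mem_fixedBy.mp hPmem
  have hyN : y ∈ normalizer ((P : Subgroup G) : Set G) := Sylow.smul_eq_iff_mem_normalizer.mp hyP
  obtain ⟨-, -, hC, hsemi⟩ := hA P
  have hsubsP : (∀ Q : Sylow 13 G, y • Q = Q → Q = P) → False := by
    intro hall
    have hss : Subsingleton ↥(MulAction.fixedBy (Sylow 13 G) y) :=
      ⟨fun a b => Subtype.ext ((hall a (MulAction.mem_fixedBy.mp a.2)).trans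
        (hall b (MulAction.mem_fixedBy.mp b.2)).symm)⟩
    have := Finite.card_le_one_iff_subsingleton.mpr hss
    omega
  have hy1 : y ≠ 1 := by
    intro h1
    rw [h1, orderOf_one] at hy
    omega
  have hyC : y ∉ centralizer ((P : Subgroup G) : Set G) := fun hyc =>
    hsubsP (fun Q hQ => hsemi y hyc hy1 Q hQ)
  -- (4) a second fixed point `Q₀`
  obtain ⟨Q₀, hyQ₀, hQ₀P⟩ : ∃ Q₀ : Sylow 13 G, y • Q₀ = Q₀ ∧ Q₀ ≠ P := by
    by_contra hno
    apply hsubsP
    intro Q hQ
    by_contra hQP
    exact hno ⟨Q, hQ, hQP⟩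
  have : Fintype ↥(centralizer ((P : Subgroup G) : Set G)) := Fintype.ofFinite _
  -- the centralizer is regular on the other Sylow subgroups
  have hreg : ∀ Q' : Sylow 13 G, Q' ≠ P →
      ∃ c ∈ centralizer ((P : Subgroup G) : Set G), c • Q₀ = Q' := by
    intro Q' hQ'
    have hinj : Function.Injective
        (fun c : ↥(centralizer ((P : Subgroup G) : Set G)) => (c : G) • Q₀) := by
      intro c c' hcc
      have hcc' : (c : G) • Q₀ = (c' : G) • Q₀ := hcc
      have h1 : ((c' : G)⁻¹ * (c : G)) • Q₀ = Q₀ := by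
        rw [mul_smul, hcc', inv_smul_smul]
      by_contra hne
      have h2 : (c' : G)⁻¹ * (c : G) ≠ 1 := by
        intro h3
        apply hne
        apply Subtype.ext
        exact (inv_mul_eq_one.mp h3).symm
      exact hQ₀P (hsemi _ (mul_mem (inv_mem c'.2) c.2) h2 Q₀ h1)
    have hcardT : (Finset.univ.image
        (fun c : ↥(centralizer ((P : Subgroup G) : Set G)) => (c : G) • Q₀)).card = 39 := by
      rw [Finset.card_image_of_injective _ hinj, Finset.card_univ, ← Nat.card_eq_fintype_card, hC]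
    have hsub : Finset.univ.image
        (fun c : ↥(centralizer ((P : Subgroup G) : Set G)) => (c : G) • Q₀) ⊆
        Finset.univ.erase P := by
      intro Q hQ
      obtain ⟨c, -, rfl⟩ := Finset.mem_image.mp hQ
      rw [Finset.mem_erase]
      refine ⟨?_, Finset.mem_univ _⟩
      intro hcP
      apply hQ₀P
      have h1 : (c : G)⁻¹ • P = P := Sylow.smul_eq_iff_mem_normalizer.mpr
        (inv_mem (Subgroup.centralizer_le_normalizer _ c.2))
      calc Q₀ = (c : G)⁻¹ • ((c : G) • Q₀) := (inv_smul_smul _ _).symm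
        _ = (c : G)⁻¹ • P := congrArg (fun Z => (c : G)⁻¹ • Z) hcP
        _ = P := h1
    have hcardE : (Finset.univ.erase P).card = 39 := by
      rw [Finset.card_erase_of_mem (Finset.mem_univ P), Finset.card_univ,
        ← Nat.card_eq_fintype_card, hn]
    have heq := Finset.eq_of_subset_of_card_le hsub (by rw [hcardT, hcardE])
    have hmem : Q' ∈ Finset.univ.erase P := Finset.mem_erase.mpr ⟨hQ', Finset.mem_univ _⟩
    rw [← heq] at hmem
    obtain ⟨c, -, hc⟩ := Finset.mem_image.mp hmem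
    exact ⟨c, c.2, hc⟩
  -- fixed points of `y` other than `P` come from elements of `C(P)` commuting with `y`
  have hkey : ∀ Q' : Sylow 13 G, y • Q' = Q' → Q' ≠ P →
      ∃ d ∈ centralizer ((P : Subgroup G) : Set G) ⊓ centralizer ({y} : Set G), d • Q₀ = Q' := by
    intro Q' hyQ' hQ'
    obtain ⟨c, hc, hcQ⟩ := hreg Q' hQ'
    refine ⟨c, Subgroup.mem_inf.mpr ⟨hc, ?_⟩, hcQ⟩
    rw [Subgroup.mem_centralizer_iff]
    intro z hz
    rw [Set.mem_singleton_iff] at hz
    rw [hz]
    have hc' : y * c * y⁻¹ ∈ centralizer ((P : Subgroup G) : Set G) :=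
      o4680_conj_mem_centralizer _ hyN hc
    have h1 : (y * c * y⁻¹) • Q₀ = c • Q₀ := by
      rw [mul_smul, mul_smul, inv_smul_eq_iff.mpr hyQ₀.symm, hcQ, hyQ']
    have h2 : (c⁻¹ * (y * c * y⁻¹)) • Q₀ = Q₀ := by
      rw [mul_smul, h1, inv_smul_smul]
    have h3 : c⁻¹ * (y * c * y⁻¹) = 1 := by
      by_contra hne
      exact hQ₀P (hsemi _ (mul_mem (inv_mem hc) hc') hne Q₀ h2)
    have h4 : y * c * y⁻¹ = c := (inv_mul_eq_one.mp h3).symm
    calc y * c = y * c * y⁻¹ * y := by group
      _ = c * y := by rw [h4]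
  -- the order of `C(P) ⊓ C(y)`
  have hD3 : Nat.card ↥(centralizer ((P : Subgroup G) : Set G) ⊓ centralizer ({y} : Set G)) ≤ 3 := by
    have hdvd : Nat.card ↥(centralizer ((P : Subgroup G) : Set G) ⊓ centralizer ({y} : Set G))
        ∣ 39 := by
      rw [← hC]
      exact Subgroup.card_dvd_of_le inf_le_left
    apply o4680_arith_d _ hdvd
    intro h13
    obtain ⟨d, hd⟩ := exists_prime_orderOf_dvd_card'
      (G := ↥(centralizer ((P : Subgroup G) : Set G) ⊓ centralizer ({y} : Set G))) 13 h13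
    have hdC : (d : G) ∈ centralizer ((P : Subgroup G) : Set G) := (Subgroup.mem_inf.mp d.2).1
    have hdy : (d : G) ∈ centralizer ({y} : Set G) := (Subgroup.mem_inf.mp d.2).2
    have hord : orderOf (d : G) = 13 := by
      rw [Subgroup.orderOf_coe]; exact hd
    have hd1 : (d : G) ≠ 1 := by
      intro h1
      rw [h1, orderOf_one] at hord
      omega
    have hpg : IsPGroup 13 (zpowers (d : G)) :=
      IsPGroup.of_card (n := 1) (by rw [Nat.card_zpowers, hord, pow_one])
    have hdP : (d : G) ∈ (P : Subgroup G) :=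
      Cfsg.Agent.Helper9.OrdTools.mem_sylow_of_mem_normalizer P hpg
        ((Subgroup.zpowers_le).mpr (Subgroup.centralizer_le_normalizer _ hdC))
        (Subgroup.mem_zpowers _)
    have e1 := Cfsg.Agent.Helper9.OrdTools.zpowers_eq_sylow P (hP13 P) hdP hd1
    apply hyC
    rw [Subgroup.mem_centralizer_iff]
    intro z hz
    have hz' : z ∈ zpowers (d : G) := by rw [e1]; exact hz
    obtain ⟨k, rfl⟩ := Subgroup.mem_zpowers_iff.mp hz'
    have hcomm : y * (d : G) = (d : G) * y :=
      (Subgroup.mem_centralizer_iff.mp hdy) y (Set.mem_singleton y)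
    exact ((show Commute (d : G) y from hcomm.symm).zpow_left k).eq
  -- count
  have : Fintype ↥(centralizer ((P : Subgroup G) : Set G) ⊓ centralizer ({y} : Set G)) :=
    Fintype.ofFinite _
  have hFcard : Nat.card (MulAction.fixedBy (Sylow 13 G) y) =
      (Finset.univ.filter (fun Q : Sylow 13 G => y • Q = Q)).card := by
    rw [Nat.card_eq_fintype_card]
    exact Fintype.card_of_subtype _ (fun Q => by
      rw [Finset.mem_filter, MulAction.mem_fixedBy]
      exact ⟨fun hq => hq.2, fun hq => ⟨Finset.mem_univ _, hq⟩⟩)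
  have hsub : (Finset.univ.filter (fun Q : Sylow 13 G => y • Q = Q)).erase P ⊆
      Finset.univ.image
        (fun d : ↥(centralizer ((P : Subgroup G) : Set G) ⊓ centralizer ({y} : Set G)) =>
          (d : G) • Q₀) := by
    intro Q' hQ'
    rw [Finset.mem_erase, Finset.mem_filter] at hQ'
    obtain ⟨d, hd, hdQ⟩ := hkey Q' hQ'.2.2 hQ'.1
    exact Finset.mem_image.mpr ⟨⟨d, hd⟩, Finset.mem_univ _, hdQ⟩
  have h1 := Finset.card_le_card hsub
  have h2 : (Finset.univ.image
      (fun d : ↥(centralizer ((P : Subgroup G) : Set G) ⊓ centralizer ({y} : Set G)) =>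
        (d : G) • Q₀)).card ≤
      Fintype.card ↥(centralizer ((P : Subgroup G) : Set G) ⊓ centralizer ({y} : Set G)) :=
    Finset.card_image_le.trans (le_of_eq Finset.card_univ)
  have h3 := Finset.pred_card_le_card_erase
    (s := Finset.univ.filter (fun Q : Sylow 13 G => y • Q = Q)) (a := P)
  rw [Nat.card_eq_fintype_card] at hD3
  omega

end Cfsg.Agent.Helper78
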