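-- helper78 library: piece G1 of CALL S5271 (helper85); pure Mathlib.
import Mathlib

set_option autoImplicit false

namespace Cfsg.Agent.Helper78.WkG1

variable {Ω : Type*} [Group Ω] {S : Subgroup Ω}

/-- In a finite `p`-group `S`, an `S`-invariant proper subgroup `N` admits `x ∈ S \ N` which is
central modulo `N`. -/
theorem wk_exists_central_mod [Finite S] {p : ℕ} [Fact p.Prime] (hS : IsPGroup p S)
    (N : Subgroup Ω) (hNS : N < S) (hNn : ∀ s ∈ S, ∀ n ∈ N, s * n * s⁻¹ ∈ N) :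
    ∃ x ∈ S, x ∉ N ∧ ∀ s ∈ S, x⁻¹ * s * x * s⁻¹ ∈ N := by
  have hnorm : (N.subgroupOf S).Normal := by
    constructor
    intro n hn s
    rw [Subgroup.mem_subgroupOf] at hn ⊢
    exact hNn s s.2 n hn
  have hne : N.subgroupOf S ≠ ⊤ := by
    intro h
    rw [Subgroup.subgroupOf_eq_top] at h
    exact absurd (le_antisymm hNS.le h) hNS.ne
  have : Nontrivial (S ⧸ N.subgroupOf S) := QuotientGroup.nontrivial_iff.mpr hne
  have hQ : IsPGroup p (S ⧸ N.subgroupOf S) := hS.to_quotient _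
  have := hQ.center_nontrivial
  obtain ⟨⟨z, hz⟩, hz1⟩ := exists_ne (1 : Subgroup.center (S ⧸ N.subgroupOf S))
  obtain ⟨x', rfl⟩ := QuotientGroup.mk_surjective z
  refine ⟨x', x'.2, ?_, ?_⟩
  · intro hxN
    apply hz1
    apply Subtype.ext
    show (QuotientGroup.mk x' : S ⧸ N.subgroupOf S) = 1
    exact (QuotientGroup.eq_one_iff x').mpr (Subgroup.mem_subgroupOf.mpr hxN)
  · intro s hs
    have hc := Subgroup.mem_center_iff.mp hz (QuotientGroup.mk ⟨s⁻¹, S.inv_mem hs⟩)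
    rw [← QuotientGroup.mk_mul, ← QuotientGroup.mk_mul, QuotientGroup.eq,
      Subgroup.mem_subgroupOf] at hc
    have he : (((⟨s⁻¹, S.inv_mem hs⟩ * x' : S)⁻¹ * (x' * ⟨s⁻¹, S.inv_mem hs⟩) : S) : Ω)
        = (x' : Ω)⁻¹ * s * x' * s⁻¹ := by
      simp [mul_assoc]
    rw [he] at hc
    exact hc

/-- Adjoining to an `S`-invariant subgroup an element central modulo it keeps `S`-invariance. -/
theorem wk_sup_zpowers_invariant (N : Subgroup Ω)
    (hNn : ∀ s ∈ S, ∀ n ∈ N, s * n * s⁻¹ ∈ N) (x : Ω)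
    (hx : ∀ s ∈ S, x⁻¹ * s * x * s⁻¹ ∈ N) :
    ∀ s ∈ S, ∀ n ∈ N ⊔ Subgroup.zpowers x, s * n * s⁻¹ ∈ N ⊔ Subgroup.zpowers x := by
  intro s hs n hn
  have hmap : (N ⊔ Subgroup.zpowers x).map (MulAut.conj s).toMonoidHom ≤ N ⊔ Subgroup.zpowers x := by
    rw [Subgroup.map_sup]
    apply sup_le
    · rintro _ ⟨n', hn', rfl⟩
      exact Subgroup.mem_sup_left (hNn s hs n' hn')
    · rw [MonoidHom.map_zpowers, Subgroup.zpowers_le]
      show s * x * s⁻¹ ∈ N ⊔ Subgroup.zpowers x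
      have h1 : s * x * s⁻¹ = x * (x⁻¹ * s * x * s⁻¹) := by group
      rw [h1]
      exact Subgroup.mul_mem _ (Subgroup.mem_sup_right (Subgroup.mem_zpowers x))
        (Subgroup.mem_sup_left (hx s hs))
  exact hmap ⟨n, hn, rfl⟩

theorem wk_pchain_aux [Finite S] {p : ℕ} [Fact p.Prime] (hS : IsPGroup p S) (k : ℕ) :
    ∀ (N : Subgroup Ω), N ≤ S → (∀ s ∈ S, ∀ n ∈ N, s * n * s⁻¹ ∈ N) →
    Nat.card ↥S - Nat.card ↥N = k →
    ∃ (m : ℕ) (c : Fin (m + 1) → Subgroup Ω), c 0 = N ∧ c (Fin.last m) = S ∧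
      (∀ i, N ≤ c i ∧ c i ≤ S ∧ ∀ s ∈ S, ∀ n ∈ c i, s * n * s⁻¹ ∈ c i) ∧
      ∀ i : Fin m, c i.castSucc ≤ c i.succ ∧
        ∃ x ∈ S, c i.succ = c i.castSucc ⊔ Subgroup.zpowers x := by
  induction k using Nat.strong_induction_on with
  | _ k ih =>
    intro N hNS hNn hk
    by_cases hNeq : N = S
    · refine ⟨0, fun _ => N, rfl, hNeq, fun _ => ⟨le_rfl, hNS, hNn⟩, fun i => i.elim0⟩
    · have hlt : N < S := lt_of_le_of_ne hNS hNeq
      obtain ⟨x, hxS, hxN, hx⟩ := wk_exists_central_mod hS N hlt hNn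
      have hN1S : N ⊔ Subgroup.zpowers x ≤ S :=
        sup_le hNS ((Subgroup.zpowers_le).mpr hxS)
      have hN1n := wk_sup_zpowers_invariant (S := S) N hNn x hx
      have : Finite ↥(N ⊔ Subgroup.zpowers x) :=
        Finite.of_injective _ (Subgroup.inclusion_injective hN1S)
      have hcard1 : Nat.card ↥N < Nat.card ↥(N ⊔ Subgroup.zpowers x) := by
        by_contra hge
        have heq := Subgroup.eq_of_le_of_card_ge (le_sup_left : N ≤ N ⊔ Subgroup.zpowers x)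
          (not_lt.mp hge)
        apply hxN
        rw [heq]
        exact Subgroup.mem_sup_right (Subgroup.mem_zpowers x)
      have hcard2 : Nat.card ↥(N ⊔ Subgroup.zpowers x) ≤ Nat.card ↥S :=
        Subgroup.card_le_of_le hN1S
      obtain ⟨m, c, hc0, hcl, hci, hcs⟩ :=
        ih (Nat.card ↥S - Nat.card ↥(N ⊔ Subgroup.zpowers x)) (by omega)
          (N ⊔ Subgroup.zpowers x) hN1S hN1n rfl
      refine ⟨m + 1, Fin.cons N c, rfl, ?_, ?_, ?_⟩
      · have : Fin.last (m + 1) = (Fin.last m).succ := rfl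
        rw [this, Fin.cons_succ, hcl]
      · intro i
        refine Fin.cases ?_ (fun j => ?_) i
        · exact ⟨le_rfl, hNS, hNn⟩
        · rw [Fin.cons_succ]
          exact ⟨le_sup_left.trans (hci j).1, (hci j).2.1, (hci j).2.2⟩
      · intro i
        refine Fin.cases ?_ (fun j => ?_) i
        · have h0 : (0 : Fin (m + 1)).castSucc = (0 : Fin (m + 2)) := rfl
          rw [h0, Fin.cons_zero, Fin.cons_succ, hc0]
          exact ⟨le_sup_left, x, hxS, rfl⟩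
        · have h1 : j.succ.castSucc = j.castSucc.succ := rfl
          rw [h1, Fin.cons_succ, Fin.cons_succ]
          exact hcs j

theorem wk_pchain [Finite S] {p : ℕ} [Fact p.Prime] (hS : IsPGroup p S) (N : Subgroup Ω) (hNS : N ≤ S)
    (hNn : ∀ s ∈ S, ∀ n ∈ N, s * n * s⁻¹ ∈ N) :
    ∃ (m : ℕ) (c : Fin (m + 1) → Subgroup Ω), c 0 = N ∧ c (Fin.last m) = S ∧
      (∀ i, N ≤ c i ∧ c i ≤ S ∧ ∀ s ∈ S, ∀ n ∈ c i, s * n * s⁻¹ ∈ c i) ∧
      ∀ i : Fin m, c i.castSucc ≤ c i.succ ∧ ∃ x ∈ S, c i.succ = c i.castSucc ⊔ Subgroup.zpowers x :=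
  wk_pchain_aux hS _ N hNS hNn rfl

end Cfsg.Agent.Helper78.WkG1
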